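import Cfsg.Agent.CT.GaloisField

/-! Orbit lengths of a coprime linear group with two orbits on non-zero vectors. -/

set_option autoImplicit false

namespace Cfsg.R3

open MulAction

universe u v

section Two

variable {H : Type u} [Group H] {X : Type v} [MulAction H X] {x₀ : X}

/-- `v` and `w` represent the two orbits outside the base point -/
structure TwoAt (H : Type u) [Group H] {X : Type v} [MulAction H X] (x₀ v w : X) : Prop where
  fix : ∀ g : H, g • x₀ = x₀
  v_ne : v ≠ x₀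
  w_ne : w ≠ x₀
  ne : w ∉ orbit H v
  all : ∀ x, x ≠ x₀ → x ∈ orbit H v ∨ x ∈ orbit H w

theorem TwoAt.symm {v w : X} (h : TwoAt H x₀ v w) : TwoAt H x₀ w v :=
  ⟨h.fix, h.w_ne, h.v_ne, fun h1 => h.ne (mem_orbit_symm.1 h1), fun x hx => (h.all x hx).symm⟩

theorem TwoAt.notMem {v w : X} (h : TwoAt H x₀ v w) {x : X} (hx : x ≠ x₀) : x₀ ∉ orbit H x :=
  fun h1 => by
    obtain ⟨g, hg⟩ := mem_orbit_symm.1 h1
    exact hx (hg.symm.trans (h.fix g))

theorem TwoAt.card_quotient {v w : X} (h : TwoAt H x₀ v w) :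
    Nat.card (orbitRel.Quotient H X) = 3 := by
  rw [← Set.ncard_univ, Set.ncard_eq_three]
  refine ⟨⟦x₀⟧, ⟦v⟧, ⟦w⟧, fun e => h.notMem h.v_ne (Quotient.exact e),
    fun e => h.notMem h.w_ne (Quotient.exact e), fun e => h.ne (Quotient.exact e.symm), ?_⟩
  refine (Set.eq_univ_of_forall fun q => ?_).symm
  obtain ⟨x, rfl⟩ := Quotient.exists_rep q
  by_cases hx : x = x₀
  · exact Or.inl (hx ▸ rfl)
  · exact Or.inr ((h.all x hx).imp (fun e => Quotient.sound e) fun e => Quotient.sound e)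

theorem exists_twoAt (h0 : ∀ g : H, g • x₀ = x₀) (h : Nat.card (orbitRel.Quotient H X) = 3) :
    ∃ v w, TwoAt H x₀ v w := by
  have h1 : ({⟦x₀⟧}ᶜ : Set (orbitRel.Quotient H X)).ncard = 2 := by
    have : Finite (orbitRel.Quotient H X) := Nat.finite_of_card_ne_zero (by omega)
    rw [Set.ncard_compl, h, Set.ncard_singleton]
  obtain ⟨a, b, hab, h2⟩ := Set.ncard_eq_two.1 h1
  obtain ⟨v, rfl⟩ := Quotient.exists_rep a
  obtain ⟨w, rfl⟩ := Quotient.exists_rep b
  refine ⟨v, w, h0, fun e => ?_, fun e => ?_, fun e => hab (Quotient.sound e).symm, fun x hx => ?_⟩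
  · exact (h2.ge (Or.inl rfl)) (e ▸ rfl)
  · exact (h2.ge (Or.inr rfl)) (e ▸ rfl)
  · refine (h2.le (show (⟦x⟧ : orbitRel.Quotient H X) ∈ _ from fun e => ?_)).imp
      (fun e => Quotient.exact e) fun e => Quotient.exact e
    obtain ⟨g, hg⟩ : x ∈ orbit H x₀ := Quotient.exact e
    exact hx (hg.symm.trans (h0 g))

open Classical in
theorem TwoAt.sum_eq [Fintype X] {v w : X} (h : TwoAt H x₀ v w) {M : Type*} [AddCommMonoid M]
    (F : X → M) : ∑ x, F x = F x₀ + (∑ x with x ∈ orbit H v, F x + ∑ x with x ∈ orbit H w, F x) := by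
  rw [← Finset.add_sum_erase _ _ (Finset.mem_univ x₀), ← Finset.sum_union]
  · congr 1
    refine Finset.sum_congr ?_ fun _ _ => rfl
    ext x
    simp only [Finset.mem_erase, Finset.mem_univ, and_true, Finset.mem_union, Finset.mem_filter,
      true_and]
    exact ⟨h.all x, fun hx e => hx.elim (fun hx => h.notMem h.v_ne (e ▸ hx))
      fun hx => h.notMem h.w_ne (e ▸ hx)⟩
  · rw [Finset.disjoint_filter]
    intro x _ h1 h2
    exact h.ne (mem_orbit_of_mem_orbit' h1 h2)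
where
  mem_orbit_of_mem_orbit' {x v w : X} (h1 : x ∈ orbit H v) (h2 : x ∈ orbit H w) :
      w ∈ orbit H v := by
    rw [← orbit_eq_iff.2 h1]
    exact mem_orbit_symm.1 h2

open Classical in
theorem card_filter_orbit [Fintype X] (v : X) :
    (Finset.univ.filter fun x => x ∈ orbit H v).card = (stabilizer H v).index := by
  rw [index_stabilizer, ← Set.ncard_coe_finset]
  simp

open Classical in
theorem sum_orbit_const [Fintype X] (v : X) {M : Type*} [AddCommMonoid M] {F : X → M}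
    (hF : ∀ (g : H) x, F (g • x) = F x) :
    ∑ x with x ∈ orbit H v, F x = (stabilizer H v).index • F v := by
  rw [← card_filter_orbit, ← Finset.sum_const]
  refine Finset.sum_congr rfl fun x hx => ?_
  obtain ⟨g, rfl⟩ := (Finset.mem_filter.1 hx).2
  exact hF g v

theorem TwoAt.index_add [Finite X] {v w : X} (h : TwoAt H x₀ v w) :
    (stabilizer H v).index + (stabilizer H w).index + 1 = Nat.card X := by
  classical
  have := Fintype.ofFinite X
  have h1 := h.sum_eq fun _ => 1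
  rw [sum_orbit_const v fun _ _ => rfl, sum_orbit_const w fun _ _ => rfl] at h1
  simp only [Finset.sum_const, Finset.card_univ, smul_eq_mul, mul_one] at h1
  rw [Nat.card_eq_fintype_card, h1, add_comm]

theorem index_stabilizer_eq {v x : X} (h : x ∈ orbit H v) :
    (stabilizer H x).index = (stabilizer H v).index := by
  rw [index_stabilizer, index_stabilizer, orbit_eq_iff.2 h]

end Two

theorem arith_orbits {p n a b f g : ℕ} (hp : p.Prime) {s t c : ℤ} (hn : n ≠ 0)
    (ha : ¬ p ∣ a) (hb : ¬ p ∣ b) (hf : ¬ p ∣ f) (hg : ¬ p ∣ g)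
    (h1 : a + b + 1 = p ^ n) (h2 : f + g + 1 = p ^ n) (h3 : a + (f * s + g * t) = 0)
    (h4 : a ^ 2 + (f * s ^ 2 + g * t ^ 2) = p ^ n * a) (h5 : (s - t) * c = p ^ n) :
    ∃ m, n = 2 * m ∧ (p ^ m - 1 ∣ a ∨ p ^ m + 1 ∣ a) := by
  have e1 : (a : ℤ) + b + 1 = p ^ n := by exact_mod_cast h1
  have e2 : (f : ℤ) + g + 1 = p ^ n := by exact_mod_cast h2
  obtain ⟨m, -, hm⟩ := (Nat.dvd_prime_pow hp).1 (show (s - t).natAbs ∣ p ^ n from by
    rw [← Int.natAbs_natCast (p ^ n), Int.natAbs_dvd_natAbs]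
    exact ⟨c, by rw [h5]; push_cast; rfl⟩)
  have h6 : (s - t) ^ 2 = ((p : ℤ) ^ m) ^ 2 := by
    rw [← Int.natAbs_sq, hm]; push_cast; rfl
  have h7 : f * g * p ^ (2 * m) = a * b * p ^ n := by
    have : (f : ℤ) * g * (s - t) ^ 2 = a * b * p ^ n := by
      have e3 : (f : ℤ) * s + g * t = -a := by linarith
      have e4 : (f : ℤ) * s ^ 2 + g * t ^ 2 = p ^ n * a - a ^ 2 := by linarith
      have e5 : (f : ℤ) * g * (s - t) ^ 2 =
          (f + g) * (f * s ^ 2 + g * t ^ 2) - (f * s + g * t) ^ 2 := by ring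
      rw [e5, e3, e4, show (f : ℤ) + g = p ^ n - 1 by linarith,
        show (b : ℤ) = p ^ n - 1 - a by linarith]
      ring
    rw [h6, ← pow_mul, mul_comm m] at this
    exact_mod_cast this
  have hab : ¬ p ∣ a * b := fun h => (hp.dvd_mul.1 h).elim ha hb
  have hfg : ¬ p ∣ f * g := fun h => (hp.dvd_mul.1 h).elim hf hg
  obtain rfl : n = 2 * m := by
    have c1 := (Nat.pow_dvd_pow_iff_le_right hp.one_lt).1
      ((Nat.Coprime.pow_left (2 * m) ((Nat.Prime.coprime_iff_not_dvd hp).2 hab)).dvd_of_dvd_mul_left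
        (h7 ▸ Dvd.intro_left _ rfl))
    have c2 := (Nat.pow_dvd_pow_iff_le_right hp.one_lt).1
      ((Nat.Coprime.pow_left n ((Nat.Prime.coprime_iff_not_dvd hp).2 hfg)).dvd_of_dvd_mul_left
        (Dvd.intro_left _ h7.symm))
    omega
  have h8 : (f : ℤ) * g = a * b := by
    exact_mod_cast Nat.eq_of_mul_eq_mul_right (pow_pos hp.pos _) h7
  refine ⟨m, rfl, ?_⟩
  have hN : 1 < p ^ m := Nat.one_lt_pow (by omega) hp.one_lt
  rw [← Int.natCast_dvd_natCast, ← Int.natCast_dvd_natCast, Nat.cast_sub hN.le]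
  push_cast
  rw [mul_comm 2, pow_mul] at e1 e2
  have hN' : (1 : ℤ) < p ^ m := by exact_mod_cast hN
  generalize (p : ℤ) ^ m = N at *
  have h9 : (f : ℤ) = a ∨ (f : ℤ) = b := by
    have : ((f : ℤ) - a) * (f - b) = 0 := by
      linear_combination (f : ℤ) * (e2 - e1) - h8
    exact (mul_eq_zero.1 this).imp sub_eq_zero.1 sub_eq_zero.1
  rcases h9 with h9 | h9 <;> rcases sq_eq_sq_iff_eq_or_eq_neg.1 h6 with h10 | h10
  · refine Or.inl ⟨-t, mul_left_cancel₀ (show N + 1 ≠ 0 by omega) ?_⟩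
    linear_combination h3 - f * h10 - t * e2 - N * h9
  · refine Or.inr ⟨t, mul_left_cancel₀ (show N - 1 ≠ 0 by omega) ?_⟩
    linear_combination -h3 + f * h10 + t * e2 - N * h9
  · refine Or.inr ⟨N + t, mul_left_cancel₀ (show N - 1 ≠ 0 by omega) ?_⟩
    linear_combination -h3 + f * h10 + t * e2 + N * h9 + N * e1
  · refine Or.inl ⟨N - t, mul_left_cancel₀ (show N + 1 ≠ 0 by omega) ?_⟩
    linear_combination h3 - f * h10 - t * e2 + N * h9 + N * e1

section Dual

variable {H : Type u} [Group H] [Finite H] {V : Type v} [AddCommGroup V] [Finite V]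
  [DistribMulAction H V]

/-- the action on the character group -/
@[reducible] def dualAct (H : Type u) [Group H] (V : Type v) [AddCommGroup V]
    [DistribMulAction H V] : MulAction H (AddChar V ℂ) where
  smul g ψ := ψ.compAddMonoidHom (DistribSMul.toAddMonoidHom V g⁻¹)
  one_smul ψ := by
    ext x
    change ψ ((1 : H)⁻¹ • x) = ψ x
    rw [inv_one, one_smul]
  mul_smul g h ψ := by
    ext x
    change ψ ((g * h)⁻¹ • x) = ψ (h⁻¹ • g⁻¹ • x)
    rw [mul_inv_rev, mul_smul]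

attribute [local instance] dualAct

omit [Finite H] [Finite V] in
theorem dual_apply (g : H) (ψ : AddChar V ℂ) (x : V) : (g • ψ) x = ψ (g⁻¹ • x) := rfl

theorem card_quotient_dual :
    Nat.card (orbitRel.Quotient H (AddChar V ℂ)) = Nat.card (orbitRel.Quotient H V) := by
  classical
  have := Fintype.ofFinite H
  have := Fintype.ofFinite V
  have := Fintype.ofFinite (orbitRel.Quotient H (AddChar V ℂ))
  have := Fintype.ofFinite (orbitRel.Quotient H V)
  have h1 := sum_card_fixedBy_eq_card_orbits_mul_card_group H V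
  have h2 := sum_card_fixedBy_eq_card_orbits_mul_card_group H (AddChar V ℂ)
  rw [Nat.card_eq_fintype_card, Nat.card_eq_fintype_card]
  refine Nat.eq_of_mul_eq_mul_right (Fintype.card_pos (α := H)) (h2.symm.trans (Eq.trans ?_ h1))
  refine Finset.sum_congr rfl fun g _ => ?_
  have h3 : ∑ ψ : AddChar V ℂ, ∑ x, (g • ψ - ψ) x = ∑ x, ∑ ψ : AddChar V ℂ, ψ (g⁻¹ • x - x) := by
    rw [Finset.sum_comm]
    refine Finset.sum_congr rfl fun x _ => Finset.sum_congr rfl fun ψ _ => ?_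
    rw [AddChar.sub_apply', dual_apply, AddChar.map_sub_eq_div]
  simp only [AddChar.sum_eq_ite, AddChar.sum_apply_eq_ite, sub_eq_zero, inv_smul_eq_iff,
    ← Finset.sum_filter, Finset.sum_const, nsmul_eq_mul] at h3
  have h4 := mul_right_cancel₀ (Nat.cast_ne_zero.2 Fintype.card_ne_zero) h3
  rw [Nat.cast_inj] at h4
  rw [Fintype.card_subtype, Fintype.card_subtype]
  convert h4 using 3
  · rfl
  · exact eq_comm

theorem TwoAt.dvd_index {p n : ℕ} (hp : p.Prime) (hV : ∀ x : V, p • x = 0)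
    (hn : Nat.card V = p ^ n) (cop : ¬ p ∣ Nat.card H) {v w : V} (h : TwoAt H 0 v w)
    (hs : ∀ t, 0 < t → t < p → t • v ∈ orbit H v) :
    ∃ m, n = 2 * m ∧ (p ^ m - 1 ∣ (stabilizer H v).index ∨ p ^ m + 1 ∣ (stabilizer H v).index) := by
  classical
  have := Fintype.ofFinite V
  obtain ⟨φ, χ, h'⟩ := exists_twoAt (H := H) (x₀ := (0 : AddChar V ℂ)) (fun g => rfl)
    (card_quotient_dual.trans h.card_quotient)
  set O := Finset.univ.filter fun x => x ∈ orbit H v with hO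
  have hmem : ∀ x, x ∈ O ↔ x ∈ orbit H v := fun x => by simp [hO]
  let θ : AddChar V ℂ → ℂ := fun ψ => ∑ x ∈ O, ψ x
  have hθ : ∀ (g : H) ψ, θ (g • ψ) = θ ψ := fun g ψ =>
    Finset.sum_bij' (fun x _ => g⁻¹ • x) (fun x _ => g • x)
      (fun x hx => (hmem _).2 (mem_orbit_of_mem_orbit _ ((hmem _).1 hx)))
      (fun x hx => (hmem _).2 (mem_orbit_of_mem_orbit _ ((hmem _).1 hx)))
      (fun x _ => smul_inv_smul g x) (fun x _ => inv_smul_smul g x) fun _ _ => rfl
  have hpow : ∀ (ψ : AddChar V ℂ) x, ψ x ^ p = 1 := fun ψ x => by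
    rw [← AddChar.map_nsmul_eq_pow, hV, AddChar.map_zero_eq_one]
  have hint : ∀ (ψ : AddChar V ℂ) x, IsIntegral ℤ (ψ x) := fun ψ x =>
    IsIntegral.of_pow hp.pos (by rw [hpow]; exact isIntegral_one)
  have hO' : ∀ t, 0 < t → t < p → ∀ x ∈ O, t • x ∈ O := fun t h0 ht x hx => by
    obtain ⟨g, rfl⟩ := (hmem _).1 hx
    rw [hmem, smul_comm]
    exact mem_orbit_of_mem_orbit _ (hs t h0 ht)
  have hZ : ∀ ψ, ∃ z : ℤ, θ ψ = z := fun ψ => by
    refine exists_int_of_isIntegral_of_rat (IsIntegral.sum _ fun x _ => hint ψ x) ?_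
    have h1 : ∀ t ∈ Finset.Ico 1 p, θ ψ = ∑ x ∈ O, ψ x ^ t := fun t ht => by
      rw [Finset.mem_Ico] at ht
      have hinj : Function.Injective fun x : V => t • x := by
        obtain ⟨u, hu⟩ := Nat.exists_mul_mod_eq_one_of_coprime
          ((Nat.coprime_of_lt_prime (by omega) ht.2 hp).symm) hp.one_lt
        refine Function.LeftInverse.injective (g := fun x => u • x) fun x => ?_
        change u • t • x = x
        rw [← mul_smul, mul_comm, ← Nat.div_add_mod (t * u) p, hu.2, add_smul, mul_comm, mul_smul,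
          hV, smul_zero, zero_add, one_smul]
      refine (Finset.sum_bij (fun x _ => t • x) (hO' t ht.1 ht.2) (fun _ _ _ _ e => hinj e)
        (fun y hy => ?_) fun x _ => (AddChar.map_nsmul_eq_pow ψ t x).symm).symm
      obtain ⟨x, hx, e⟩ := Finset.surj_on_of_inj_on_of_card_le (s := O) (t := O)
        (fun x _ => t • x) (hO' t ht.1 ht.2) (fun _ _ _ _ e => hinj e) le_rfl y hy
      exact ⟨x, hx, e.symm⟩
    have h2 : ((p : ℂ) - 1) * θ ψ = ∑ x ∈ O, ((if ψ x = 1 then p else 0 : ℕ) - 1 : ℂ) := by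
      rw [← Nat.cast_pred hp.pos, ← Nat.card_Ico, ← nsmul_eq_mul, ← Finset.sum_const,
        Finset.sum_congr rfl h1, Finset.sum_comm]
      refine Finset.sum_congr rfl fun x _ => ?_
      rw [eq_sub_iff_add_eq', ← pow_zero (ψ x), ← Finset.sum_range_eq_add_Ico _ hp.pos]
      split_ifs with h3
      · rw [h3]
        simp
      · rw [geom_sum_eq h3, hpow, sub_self, zero_div, Nat.cast_zero]
    refine ⟨(∑ x ∈ O, ((if ψ x = 1 then p else 0 : ℕ) - 1 : ℚ)) / (p - 1), ?_⟩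
    have h3 : (p : ℂ) - 1 ≠ 0 := sub_ne_zero.2 (by exact_mod_cast hp.ne_one)
    rw [Rat.cast_div, Rat.cast_sum, Rat.cast_sub, Rat.cast_natCast, Rat.cast_one, eq_div_iff h3,
      mul_comm, h2]
    simp only [Rat.cast_sub, Rat.cast_natCast, Rat.cast_one]
  obtain ⟨s, hs'⟩ := hZ φ
  obtain ⟨t, ht⟩ := hZ χ
  have h0 : θ 0 = (stabilizer H v).index := by simp [θ, hO, card_filter_orbit]
  have hq : (Fintype.card V : ℂ) = p ^ n := by rw [← Nat.card_eq_fintype_card, hn, Nat.cast_pow]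
  have hsum : ∀ y, ∑ ψ, θ ψ * ψ (-y) = if y ∈ O then (p : ℂ) ^ n else 0 := fun y => by
    simp only [θ, Finset.sum_mul, ← AddChar.map_add_eq_mul]
    rw [Finset.sum_comm]
    simp only [AddChar.sum_apply_eq_ite, add_neg_eq_zero, Finset.sum_ite_eq', hq]
  have e1 := hsum 0
  rw [if_neg fun h1 => h.notMem h.v_ne ((hmem _).1 h1)] at e1
  simp only [neg_zero, AddChar.map_zero_eq_one, mul_one] at e1
  rw [h'.sum_eq, sum_orbit_const φ hθ, sum_orbit_const χ hθ, h0, hs', ht] at e1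
  have e2 : ∑ ψ, θ ψ ^ 2 = p ^ n * (stabilizer H v).index := by
    have h1 : ∀ ψ, θ ψ ^ 2 = ∑ y ∈ O, θ ψ * ψ (-(-y)) := fun ψ => by
      simp only [neg_neg, ← Finset.mul_sum, sq, θ]
    rw [Finset.sum_congr rfl fun ψ _ => h1 ψ, Finset.sum_comm,
      Finset.sum_congr rfl fun y hy => (hsum (-y)).trans (if_pos ?_), Finset.sum_const,
      card_filter_orbit, nsmul_eq_mul, mul_comm]
    have h2 := hO' (p - 1) (by have := hp.two_le; omega) (by have := hp.pos; omega) y hy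
    rwa [show (p - 1) • y = -y by
      rw [eq_neg_iff_add_eq_zero, ← succ_nsmul, Nat.sub_add_cancel hp.pos, hV]] at h2
  rw [h'.sum_eq, sum_orbit_const φ (F := fun ψ => θ ψ ^ 2) fun g ψ => by rw [hθ],
    sum_orbit_const χ (F := fun ψ => θ ψ ^ 2) fun g ψ => by rw [hθ], h0, hs', ht] at e2
  have e3 : ∑ ψ, (θ ψ - t) * (ψ (-v) - ψ (-w)) = p ^ n := by
    simp only [sub_mul, mul_sub, Finset.sum_sub_distrib, ← Finset.mul_sum, hsum,
      AddChar.sum_apply_eq_ite, neg_eq_zero, h.v_ne, h.w_ne, hmem, h.ne, mem_orbit_self,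
      if_true, if_false]
    ring
  have e4 : ∀ ψ₀ : AddChar V ℂ, ∑ ψ with ψ ∈ orbit H ψ₀, (θ ψ - t) * (ψ (-v) - ψ (-w)) =
      (θ ψ₀ - t) * ∑ ψ with ψ ∈ orbit H ψ₀, (ψ (-v) - ψ (-w)) := fun ψ₀ => by
    rw [Finset.mul_sum]
    refine Finset.sum_congr rfl fun ψ hψ => ?_
    obtain ⟨g, rfl⟩ := (Finset.mem_filter.1 hψ).2
    rw [hθ]
  rw [h'.sum_eq, e4, e4, hs', ht, sub_self, zero_mul, add_zero, AddChar.zero_apply,
    AddChar.zero_apply, sub_self, mul_zero, zero_add] at e3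
  have hp0 : (p : ℂ) ^ n ≠ 0 := pow_ne_zero _ (Nat.cast_ne_zero.2 hp.ne_zero)
  obtain ⟨c, hc⟩ := exists_int_of_isIntegral_of_rat (IsIntegral.sum
    (s := Finset.univ.filter fun ψ => ψ ∈ orbit H φ) (fun ψ => ψ (-v) - ψ (-w))
    fun ψ _ => (hint _ _).sub (hint _ _)) ⟨p ^ n / (s - t), by
      push_cast
      rw [eq_div_iff (left_ne_zero_of_mul (e3 ▸ hp0)), mul_comm, e3]⟩
  rw [hc] at e3
  have hd : ∀ {X : Type v} [MulAction H X] (x : X), ¬ p ∣ (stabilizer H x).index :=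
    fun x h => cop (h.trans (Subgroup.index_dvd_card _))
  simp only [nsmul_eq_mul] at e1 e2
  have : Nontrivial V := ⟨⟨v, 0, h.v_ne⟩⟩
  refine arith_orbits hp (s := s) (t := t) (c := c) (fun h0 => ?_) (hd v) (hd w) (hd φ) (hd χ)
    (h.index_add.trans hn) (h'.index_add.trans ?_) (by exact_mod_cast e1) (by exact_mod_cast e2)
    (by exact_mod_cast e3)
  · exact Finite.one_lt_card.ne' (hn.trans (by rw [h0, pow_zero]))
  · rw [Nat.card_eq_fintype_card, AddChar.card_eq, ← Nat.card_eq_fintype_card, hn]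

end Dual

end Cfsg.R3
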