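import Cfsg.Agent.R3.Two
import Cfsg.Agent.R3.Fourier

/-! Coprime linear groups with two orbits on non-zero vectors and few classes. -/

set_option autoImplicit false

namespace Cfsg.R3

open Module Pass

universe u v

theorem card_le_six_of_classes {H : Type u} [Group H] [Finite H]
    (h : Nat.card (ConjClasses H) ≤ 3) : Nat.card H ≤ 6 := by
  rcases h.eq_or_lt with h | h
  swap
  · exact (card_le_two_of_classes (by omega)).trans (by norm_num)
  obtain ⟨v, w, T⟩ := exists_twoAt (H := ConjAct H) (x₀ := (1 : H)) (fun g => smul_one g)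
    ((Nat.card_congr (Quotient.congrRight fun a b => by rw [ConjAct.orbitRel_conjAct]; rfl)).trans h)
  have h1 := T.index_add
  have h2 : ∀ x : H, x ≠ 1 → ∃ s, 2 ≤ s ∧ (MulAction.stabilizer (ConjAct H) x).index * s =
      Nat.card H := fun x hx => ⟨_, (Subgroup.one_lt_card_iff_ne_bot _).2 fun h0 =>
    hx (Subgroup.mem_bot.1 (h0.le (show ConjAct.toConjAct x • x = x by
      simp [ConjAct.smul_def]))), Subgroup.index_mul_card _⟩
  obtain ⟨s, hs, h3⟩ := h2 v T.v_ne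
  obtain ⟨t, ht, h4⟩ := h2 w T.w_ne
  rcases hs.eq_or_lt with rfl | hs <;> rcases ht.eq_or_lt with rfl | ht
  · omega
  all_goals nlinarith

variable {p : ℕ} [hp : Fact p.Prime] {W : Type v} [AddCommGroup W] [Module (ZMod p) W] [Finite W]
  {H : Type u} [Group H] [Finite H]

omit [Finite W] [Finite H] in
theorem exists_surjective {ρ : Representation (ZMod p) H W} (three : ∀ x y z : W, x ≠ 0 → y ≠ 0 →
    z ≠ 0 → (∃ g, ρ g x = y) ∨ (∃ g, ρ g x = z) ∨ ∃ g, ρ g y = z) {v : W} (hv : v ≠ 0) : ∃ w, Function.Surjective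
    fun q : Option (H ⊕ H) => q.elim 0 (Sum.elim (fun g => ρ g v) fun g => ρ g w) := by
  obtain ⟨w, h⟩ : ∃ w, ∀ x, x ≠ 0 → (∃ g, ρ g v = x) ∨ ∃ g, ρ g w = x := by
    by_cases h : ∀ x, x ≠ 0 → ∃ g, ρ g v = x
    · exact ⟨v, fun x hx => Or.inl (h x hx)⟩
    obtain ⟨w, h⟩ := not_forall.1 h
    rw [Classical.not_imp] at h
    exact ⟨w, fun x hx => (three v w x hv h.1 hx).resolve_left h.2⟩
  refine ⟨w, fun x => ?_⟩
  by_cases hx : x = 0
  · exact ⟨none, hx.symm⟩
  rcases h x hx with ⟨g, hg⟩ | ⟨g, hg⟩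
  exacts [⟨some (.inl g), hg⟩, ⟨some (.inr g), hg⟩]

theorem pow_le_of_three [Nontrivial W] {ρ : Representation (ZMod p) H W}
    (three : ∀ x y z : W, x ≠ 0 → y ≠ 0 → z ≠ 0 →
      (∃ g, ρ g x = y) ∨ (∃ g, ρ g x = z) ∨ ∃ g, ρ g y = z) :
    p ^ finrank (ZMod p) W ≤ 2 * Nat.card H + 1 := by
  obtain ⟨v, hv⟩ := exists_ne (0 : W)
  obtain ⟨w, h⟩ := exists_surjective three hv
  have h1 := Nat.card_le_card_of_surjective _ h
  rw [card_eq_pow (p := p), Finite.card_option, Nat.card_sum] at h1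
  omega

/-- a faithful coprime action with at most two orbits on non-zero vectors and few classes -/
structure Rk (ρ : Representation (ZMod p) H W) : Prop where
  inj : Function.Injective ρ
  cop : ¬ p ∣ Nat.card H
  three : ∀ x y z : W, x ≠ 0 → y ≠ 0 → z ≠ 0 →
    (∃ g, ρ g x = y) ∨ (∃ g, ρ g x = z) ∨ ∃ g, ρ g y = z
  small : 2 * Nat.card (ConjClasses H) + 1 ≤ p
  two : 2 ≤ finrank (ZMod p) W

namespace Rk

variable {ρ : Representation (ZMod p) H W} (T : Rk ρ)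
include T

omit [Finite W] [Finite H] in
theorem nt : Nontrivial W := nontrivial_of_finrank_pos (R := ZMod p) (by have := T.two; omega)

theorem pow_le : p ^ finrank (ZMod p) W ≤ 2 * Nat.card H + 1 :=
  have := T.nt
  pow_le_of_three T.three

theorem eleven_le : 11 ≤ p := by
  have h1 := (Nat.pow_le_pow_right hp.out.pos T.two).trans T.pow_le
  have h2 := T.small
  have h3 : 0 < Nat.card (ConjClasses H) := Nat.card_pos
  have h4 := card_le_one_of_classes (H := H)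
  have h5 := card_le_six_of_classes (H := H)
  have h6 := hp.out
  by_contra h
  have h7 : p < 11 := by omega
  interval_cases p <;> first | omega | norm_num at h6

theorem ne_two : p ≠ 2 := by have := T.eleven_le; omega

theorem not_tr {K : Subgroup H} (hK : K.index ≤ 2) {V : Submodule (ZMod p) W} (hV : V ≠ ⊥)
    (h : ∀ g ∈ K, ∀ v ∈ V, ρ g v ∈ V)
    (tr : ∀ v ∈ V, ∀ w ∈ V, v ≠ 0 → w ≠ 0 → ∃ g ∈ K, ρ g v = w) : False := by
  have := Submodule.nontrivial_iff_ne_bot.2 hV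
  have h1 := le_classes_add_two
    (σ := Representation.subrepresentation (ρ.comp K.subtype) V fun g v hv => h g g.2 v hv)
    (fun h => T.cop (h.trans K.card_subgroup_dvd_card)) fun v w hv hw => by
      obtain ⟨g, hg, e⟩ := tr v v.2 w w.2 (fun e => hv (Subtype.ext e)) fun e => hw (Subtype.ext e)
      exact ⟨⟨g, hg⟩, Subtype.ext e⟩
  have h2 := T.small
  have h3 := T.eleven_le
  have h4 := classes_le_index_mul K
  have h5 := classes_add_two_le (K := K)
  have h6 := K.index_ne_zero_of_finite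
  obtain h7 | h7 : K.index = 1 ∨ K.index = 2 := by omega
  · rw [h7] at h4
    omega
  · omega

theorem irred {V : Submodule (ZMod p) W} (hV : V ≠ ⊥) (h : ∀ g, ∀ v ∈ V, ρ g v ∈ V) : V = ⊤ := by
  by_contra h1
  obtain ⟨u, -, hu⟩ := SetLike.exists_of_lt (lt_top_iff_ne_top.2 h1)
  refine T.not_tr (K := ⊤) (by simp) hV (fun g _ => h g) fun v hv w hw hv0 hw0 => ?_
  rcases T.three v w u hv0 hw0 (fun e => hu (e ▸ V.zero_mem)) with ⟨g, e⟩ | ⟨g, e⟩ | ⟨g, e⟩
  · exact ⟨g, trivial, e⟩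
  · exact absurd (e ▸ h g v hv) hu
  · exact absurd (e ▸ h g w hw) hu

theorem ne_two_dim : finrank (ZMod p) W ≠ 2 := fun hn => by
  have h1 := T.pow_le
  have h2 := T.small
  have h3 := T.eleven_le
  have h4 := (Subgroup.center H).index_mul_card
  have h5 : 11 * p ≤ p ^ 2 := by nlinarith
  have h6 : (2 : ZMod p) ≠ 0 := fun h => by
    have := Nat.le_of_dvd two_pos ((ZMod.natCast_eq_zero_iff 2 p).1 h)
    omega
  rw [hn] at h1
  rcases dickson_of_finrank ρ T.inj h6 (fun h => T.cop ((ZMod.natCast_eq_zero_iff _ p).1 h))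
    hn.le with ⟨A, h, hi⟩ | ⟨hi, h⟩ | ⟨hi, h⟩ | ⟨hi, h⟩
  · have := card_le_four_mul h hi
    omega
  · rw [hi] at h4
    omega
  · rw [hi] at h4
    omega
  rw [hi] at h4
  have h7 : p = 11 := by
    have h8 : p < 14 := by nlinarith
    interval_cases p <;> omega
  have h8 : Nat.card (Subgroup.center H) = 1 := by
    have := Nat.card_pos (α := Subgroup.center H)
    omega
  obtain ⟨t, ht⟩ := exists_prime_orderOf_dvd_card' (G := H) 2 (by omega)
  have ht1 : t ≠ 1 := fun h => by rw [h, orderOf_one] at ht; omega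
  have ht2 : t * t = 1 := by rw [← sq, ← ht, pow_orderOf_eq_one]
  obtain ⟨v, hv⟩ : ∃ v, ρ t v + v ≠ 0 := by
    by_contra! h9
    refine ht1 (Subgroup.mem_bot.1 (Subgroup.card_eq_one.1 h8 ▸ pm_le_center T.inj (Or.inr ?_)))
    exact LinearMap.ext fun v => eq_neg_of_add_eq_zero_left (h9 v)
  have h9 : ρ t (ρ t v + v) = ρ t v + v := by
    rw [map_add, ← Module.End.mul_apply, ← map_mul, ht2, map_one, add_comm, Module.End.one_apply]
  generalize ρ t v + v = u at hv h9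
  obtain ⟨w, h10⟩ := exists_surjective T.three hv
  have h11 := (fiber_of_card_le h10 (a := some (.inl t)) (b := some (.inl 1))
    (by simpa using ht1) (by simpa using h9)).1
  rw [card_eq_pow (p := p), Finite.card_option, Nat.card_sum, hn, h7] at h11
  omega

theorem three_le : 3 ≤ finrank (ZMod p) W := by
  have := T.two
  have := T.ne_two_dim
  omega

theorem apply_eq_zero {R : Subalgebra (ZMod p) (Module.End (ZMod p) W)}
    (hc : ∀ r ∈ R, ∀ s ∈ R, r * s = s * r) (hn : ∀ g, ∀ r ∈ R, ρ g * r * ρ g⁻¹ ∈ R) :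
    ∀ r ∈ R, ∀ u, r u = 0 → r = 0 ∨ u = 0 := by
  have := T.nt
  have : Finite (Module.End (ZMod p) W) := Finite.of_injective _ DFunLike.coe_injective
  let a : W → Set (Module.End (ZMod p) W) := fun u => {r | r ∈ R ∧ r u = 0}
  have h1 : ∀ g u r, r ∈ a (ρ g u) ↔ ρ g⁻¹ * r * ρ g ∈ a u := fun g u r =>
    ⟨fun h => ⟨by simpa using hn g⁻¹ r h.1, by
      rw [Module.End.mul_apply, Module.End.mul_apply, h.2, map_zero]⟩, fun h => ⟨by
      simpa [mul_assoc, ← map_mul, ← mul_assoc (ρ g)] using hn g _ h.1, by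
      rw [← ρ.self_inv_apply g (r _)]
      exact (congrArg (ρ g) h.2).trans (map_zero _)⟩⟩
  have h2 : ∀ g u, (a (ρ g u)).ncard = (a u).ncard := fun g u =>
    Set.ncard_congr' ⟨fun r => ⟨_, (h1 g u r).1 r.2⟩, fun r => ⟨ρ g * r * ρ g⁻¹, (h1 g u _).2 (by
      simp [mul_assoc, ← map_mul, ← mul_assoc (ρ g⁻¹)])⟩,
      fun r => Subtype.ext (by simp [mul_assoc, ← map_mul, ← mul_assoc (ρ g)]),
      fun r => Subtype.ext (by simp [mul_assoc, ← map_mul, ← mul_assoc (ρ g⁻¹)])⟩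
  obtain ⟨v, hv, hm⟩ := Set.exists_max_image {v : W | v ≠ 0} (fun v => (a v).ncard)
    (Set.toFinite _) (exists_ne 0)
  have h3 : ∀ g u, u ≠ 0 → a (ρ g v) ⊆ a u → a u = a (ρ g v) := fun g u hu h =>
    (Set.eq_of_subset_of_ncard_le h ((hm u hu).trans (h2 g v).ge)).symm
  have h4 : ∀ g, ∀ r ∈ R, r (ρ g v) ≠ 0 → a (r (ρ g v)) = a (ρ g v) := fun g r hr h =>
    h3 g _ h fun s hs => ⟨hs.1, by
      rw [← Module.End.mul_apply, hc s hs.1 r hr, Module.End.mul_apply, hs.2, map_zero]⟩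
  have h5 : ∀ g, ∀ r ∈ R, ∀ s ∈ R, s (r (ρ g v)) = 0 → r (ρ g v) = 0 ∨ s (ρ g v) = 0 :=
    fun g r hr s hs h => or_iff_not_imp_left.2 fun h0 => ((h4 g r hr h0).le ⟨hs, h⟩).2
  have h6 : ∀ g k, a (ρ g v) ≠ a (ρ k v) → ∀ r ∈ R, r (ρ g v + ρ k v) = 0 →
      r (ρ g v) = 0 ∧ r (ρ k v) = 0 := fun g k hgk r hr h => by
    rw [map_add] at h
    have h7 : r (ρ g v) = 0 := by
      by_contra h0
      have h8 : r (ρ k v) = (-r) (ρ g v) := (neg_eq_of_add_eq_zero_right h).symm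
      have h9 : (-r) (ρ g v) ≠ 0 := by simpa using h0
      exact hgk ((h4 g _ (neg_mem hr) h9).symm.trans (h8 ▸ h4 k r hr (h8 ▸ h9)))
    exact ⟨h7, by rwa [h7, zero_add] at h⟩
  have h7 : ∀ g k, a (ρ g v) ≠ a (ρ k v) → ∃ s ∈ R, s (ρ g v) = 0 ∧ s (ρ k v) ≠ 0 :=
    fun g k hgk => by
      by_contra! h
      exact hgk (h3 g _ (apply_ne_zero k hv) fun s hs => ⟨hs.1, h s hs.1 hs.2⟩).symm
  have h8 : ∀ g k, a (ρ g v) ≠ a (ρ k v) → ρ g v + ρ k v ≠ 0 ∧
      (a (ρ g v + ρ k v)).ncard < (a v).ncard := fun g k hgk => by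
    refine ⟨fun h => apply_ne_zero g hv (h6 g k hgk 1 R.one_mem h).1, ?_⟩
    obtain ⟨s, hs, h, h'⟩ := h7 g k hgk
    rw [← h2 g v]
    exact Set.ncard_lt_ncard ⟨fun r hr => ⟨hr.1, (h6 g k hgk r hr.1 hr.2).1⟩,
      fun h0 => h' (h6 g k hgk s hs (h0 ⟨hs, h⟩).2).2⟩
  have h9 : ∀ g k l, a (ρ g v) = a (ρ k v) ∨ a (ρ g v) = a (ρ l v) ∨ a (ρ k v) = a (ρ l v) := by
    intro g k l
    by_contra! h
    have h10 : ∀ r ∈ R, r (ρ g v + ρ k v + ρ l v) = 0 →
        r (ρ g v) = 0 ∧ r (ρ k v) = 0 ∧ r (ρ l v) = 0 := fun r hr h0 => by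
      obtain ⟨s, hs, h11, h12⟩ := h7 l g h.2.1.symm
      have h13 := (h5 g r hr s hs (h6 g k h.1 (s * r) (mul_mem hs hr) (by
        have h14 := congrArg s h0
        rwa [map_add r, map_add s, map_zero, ← Module.End.mul_apply s r (ρ l v), hc s hs r hr,
          Module.End.mul_apply, h11, map_zero, add_zero] at h14)).1).resolve_right h12
      exact ⟨h13, h6 k l h.2.2 r hr (by rwa [add_assoc, map_add, h13, zero_add] at h0)⟩
    have h11 : (a (ρ g v + ρ k v + ρ l v)).ncard < (a (ρ g v + ρ k v)).ncard := by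
      obtain ⟨s, hs, h12, h13⟩ := h7 g l h.2.1
      obtain ⟨r, hr, h14, h15⟩ := h7 k l h.2.2
      refine Set.ncard_lt_ncard ⟨fun r hr => ⟨hr.1, by
        rw [map_add, (h10 r hr.1 hr.2).1, (h10 r hr.1 hr.2).2.1, add_zero]⟩, fun h0 => ?_⟩
      refine (h5 l r hr s hs (h10 _ (mul_mem hs hr) (h0 ⟨mul_mem hs hr, ?_⟩).2).2.2).elim h15 h13
      rw [map_add, Module.End.mul_apply s r (ρ k v), h14, hc s hs r hr, Module.End.mul_apply, h12,
        map_zero, map_zero, add_zero]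
    have h12 := h8 g k h.1
    rcases T.three v _ (ρ g v + ρ k v + ρ l v) hv h12.1 (fun h0 => apply_ne_zero g hv (h10 1 R.one_mem h0).1) with
      ⟨x, e⟩ | ⟨x, e⟩ | ⟨x, e⟩
    all_goals
      have h13 := (congrArg (fun u => (a u).ncard) e).symm.trans (h2 x _)
      beta_reduce at h13
      omega
  intro r hr u hu
  by_contra! h0
  let V : Submodule (ZMod p) W := ⨅ s : a v, LinearMap.ker s.1
  have hV : ∀ u, u ∈ V ↔ a v ⊆ a u := fun u => by
    rw [Submodule.mem_iInf]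
    exact ⟨fun h s hs => ⟨hs.1, h ⟨s, hs⟩⟩, fun h s => (h s.2).2⟩
  have hV0 : V ≠ ⊥ := fun h => hv ((Submodule.eq_bot_iff _).1 h v ((hV v).2 le_rfl))
  have h10 : ∀ u ∈ V, u ≠ 0 → a u = a v := fun u hu hu0 => by
    simpa using h3 1 u hu0 (by simpa using (hV u).1 hu)
  have h11 : ∀ g u w, a u = a w → a (ρ g u) = a (ρ g w) := fun g u w h =>
    Set.ext fun r => by rw [h1, h1, h]
  let K : Subgroup H :=
    { carrier := {g | a (ρ g v) = a v}
      one_mem' := by simp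
      mul_mem' := fun {g k} hg hk => by
        change a (ρ (g * k) v) = a v
        rw [map_mul, Module.End.mul_apply, h11 g _ _ hk, hg]
      inv_mem' := fun {g} hg => by simpa using (h11 g⁻¹ _ _ hg).symm }
  have hK : ∀ g ∈ K, ∀ u ∈ V, ρ g u ∈ V := fun g hg u hu => by
    by_cases hu0 : u = 0
    · simp [hu0]
    rw [hV, h11 g _ _ (h10 u hu hu0), hg]
  by_cases hK1 : K = ⊤
  · have h12 := T.irred hV0 fun g => hK g (hK1.ge trivial)
    refine h0.1 (LinearMap.ext fun x => ((hV x).1 (h12.ge trivial) ?_).2)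
    rw [← h10 u (h12.ge trivial) h0.2]
    exact ⟨hr, hu⟩
  obtain ⟨k, -, hk⟩ := SetLike.exists_of_lt (lt_top_iff_ne_top.2 hK1)
  have hk' : a (ρ 1 v) ≠ a (ρ k v) := fun e => hk (show _ = _ by simpa using e.symm)
  refine T.not_tr (K := K) (Subgroup.index_eq_two_iff'.2 ⟨k⁻¹, fun g => ?_⟩).le hV0 hK
    fun x hx y hy hx0 hy0 => ?_
  · have h12 : k⁻¹ * g ∈ K ↔ a (ρ g v) = a (ρ k v) := by
      refine ⟨fun h => by simpa using h11 k _ _ h, fun h => ?_⟩
      change a (ρ (k⁻¹ * g) v) = a v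
      simpa using h11 k⁻¹ _ _ h
    rw [h12]
    by_cases hg : g ∈ K
    · exact Or.inr ⟨hg, fun h => hk (h.symm.trans hg)⟩
    · exact Or.inl ⟨((h9 1 k g).resolve_left hk').elim
        (fun h => absurd (show _ = _ by simpa using h.symm) hg) Eq.symm, hg⟩
  have h12 := h8 1 k hk'
  rcases T.three x y _ hx0 hy0 h12.1 with ⟨g, e⟩ | ⟨g, e⟩ | ⟨g, e⟩
  · refine ⟨g, ?_, e⟩
    change a (ρ g v) = a v
    rw [← h11 g _ _ (h10 x hx hx0), e, h10 y hy hy0]
  · rw [← e, h2, h10 x hx hx0] at h12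
    omega
  · rw [← e, h2, h10 y hy hy0] at h12
    omega

end Rk

end Cfsg.R3
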