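import Cfsg.Agent.Pass.NT

/-! Cyclotomic values with small prime divisors. -/

set_option autoImplicit false

namespace Cfsg.R3

open Polynomial Pass

theorem poly_le_ten_pow {t : ℕ} (ht : 14 ≤ t) : 2 * t ^ 2 * (2 * t ^ 2 + 1) ^ 2 *
    (2 * (2 * t ^ 2) + 1) * (3 * (2 * t ^ 2) + 1) ≤ 10 ^ t := by
  induction t, ht using Nat.le_induction with
  | base => norm_num
  | succ t ht ih =>
    have h0 : (t + 1) ^ 2 * 2 ≤ 3 * t ^ 2 := by nlinarith
    have h1 : 2 * (t + 1) ^ 2 * 2 ≤ 3 * (2 * t ^ 2) := by omega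
    have h2 : (2 * (t + 1) ^ 2 + 1) * 2 ≤ 3 * (2 * t ^ 2 + 1) := by omega
    have h3 : (2 * (2 * (t + 1) ^ 2) + 1) * 2 ≤ 3 * (2 * (2 * t ^ 2) + 1) := by omega
    have h4 : (3 * (2 * (t + 1) ^ 2) + 1) * 2 ≤ 3 * (3 * (2 * t ^ 2) + 1) := by omega
    have h5 := Nat.mul_le_mul (Nat.mul_le_mul (Nat.mul_le_mul h1 (Nat.pow_le_pow_left h2 2)) h3) h4
    rw [pow_succ 10 t]
    generalize 2 * (2 * (t + 1) ^ 2) + 1 = c' at *
    generalize 3 * (2 * (t + 1) ^ 2) + 1 = d' at *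
    generalize 2 * (t + 1) ^ 2 + 1 = b' at *
    generalize 2 * (t + 1) ^ 2 = a' at *
    generalize 2 * (2 * t ^ 2) + 1 = c at *
    generalize 3 * (2 * t ^ 2) + 1 = d at *
    generalize 2 * t ^ 2 + 1 = b at *
    generalize 2 * t ^ 2 = a at *
    have e1 : a' * 2 * (b' * 2) ^ 2 * (c' * 2) * (d' * 2) = 32 * (a' * b' ^ 2 * c' * d') := by ring
    have e2 : 3 * a * (3 * b) ^ 2 * (3 * c) * (3 * d) = 243 * (a * b ^ 2 * c * d) := by ring
    omega

theorem half_check_a : ∀ m < 339, 31 ≤ m →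
    m * (m + 1) ^ 2 * (2 * m + 1) * (3 * m + 1) ≤ 10 ^ m.totient := by
  decide +kernel

theorem half_check_b : ∀ m < 31, 3 ≤ m →
    m * (m + 1) ^ 2 * (2 * m + 1) * (3 * m + 1) ≤ 270 ^ m.totient := by
  decide +kernel

set_option synthInstance.maxSize 1024 in
theorem half_check_c : ∀ m < 31, 3 ≤ m → ∀ q < 271, 11 ≤ q →
    Nat.gcd (m * (m + 1) ^ 2 * (2 * m + 1) * (3 * m + 1))
      ((q ^ m - 1) / (q ^ (m / m.minFac) - 1)) ≤ (q - 1) ^ m.totient ∨ q = 18 ∨ q = 12 ∨
      (m = 6 ∧ (q = 17 ∨ q = 31)) := by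
  decide +kernel

theorem eq_six_of_half {q m : ℕ} (hq : 11 ≤ q) (hm : 3 ≤ m)
    (h : ∀ s e : ℕ, s.Prime → s ^ (e + 1) ∣ q ^ m - 1 →
      (∀ i, 0 < i → i < m → ¬ s ∣ q ^ i - 1) → m ∣ s - 1 → s < 4 * m ∧ e ≤ 1 ∧ (2 * m ≤ s → e = 0)) :
    q = 18 ∨ q = 12 ∨ (m = 6 ∧ (q = 17 ∨ q = 31)) := by
  have h2 := sub_one_pow_totient_lt_natAbs_cyclotomic_eval (n := m) (q := q) (by omega) (by omega)
  have hmf := Nat.minFac_prime (by omega : m ≠ 1)
  have h3 := cyclotomic_mul_dvd (q := q) (by omega) (Nat.div_dvd_of_dvd m.minFac_dvd)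
    (Nat.div_lt_self (by omega) hmf.one_lt)
  have h4 := fun r => prime_dvd_cyclotomic (q := q) (n := m) (by omega) hm (r := r)
  generalize ((cyclotomic m ℤ).eval (q : ℤ)).natAbs = F at h2 h3 h4
  have h5 : F ∣ q ^ m - 1 := (Dvd.intro_left _ rfl).trans h3
  have h6 : F ∣ m * (m + 1) ^ 2 * (2 * m + 1) * (3 * m + 1) := by
    refine (Nat.dvd_iff_prime_pow_dvd_dvd _ _).2 fun r e hr hd => ?_
    rcases e with _ | e
    · simp
    rcases h4 r hr ((dvd_pow_self r e.succ_ne_zero).trans hd) with ⟨-, b, c, hc⟩ | ⟨a, b⟩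
    · obtain ⟨h7, h8, h9⟩ := h r e hr (hd.trans h5) b ⟨c, hc⟩
      have h10 := hr.two_le
      have h11 : c < 4 := by
        by_contra h11
        have := Nat.mul_le_mul_left m (not_lt.1 h11)
        omega
      interval_cases c
      · omega
      · rw [show r = m + 1 by omega]
        exact (((pow_dvd_pow _ (by omega)).mul_left _).mul_right _).mul_right _
      · rw [h9 (by omega), show r = 2 * m + 1 by omega, zero_add, pow_one]
        exact (Dvd.intro_left _ rfl).mul_right _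
      · rw [h9 (by omega), show r = 3 * m + 1 by omega, zero_add, pow_one]
        exact Dvd.intro_left _ rfl
    · obtain rfl : e = 0 := by
        by_contra h
        exact b ((pow_dvd_pow _ (by omega)).trans hd)
      rw [zero_add, pow_one]
      exact ((a.mul_right _).mul_right _).mul_right _
  have h7 := Nat.le_of_dvd (by positivity) h6
  have hm31 : m < 31 := by
    by_contra h8
    have h9 := (le_two_mul_totient_sq m).1
    have h10 := Nat.pow_le_pow_left (by omega : 10 ≤ q - 1) m.totient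
    by_cases ht : 14 ≤ m.totient
    · have := (Nat.mul_le_mul (Nat.mul_le_mul (Nat.mul_le_mul h9 (Nat.pow_le_pow_left
        (Nat.succ_le_succ h9) 2)) (Nat.succ_le_succ (Nat.mul_le_mul_left 2 h9)))
        (Nat.succ_le_succ (Nat.mul_le_mul_left 3 h9))).trans (poly_le_ten_pow ht)
      simp only [Nat.succ_eq_add_one] at this
      omega
    · have : m.totient ^ 2 ≤ 13 ^ 2 := Nat.pow_le_pow_left (by omega) 2
      have := half_check_a m (by omega) (by omega)
      omega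
  have hq' : q < 271 := by
    by_contra h8
    have := half_check_b m hm31 hm
    have := Nat.pow_le_pow_left (by omega : 270 ≤ q - 1) m.totient
    omega
  refine (half_check_c m hm31 hm q hq' hq).resolve_left (not_le.2 (h2.trans_le ?_))
  exact Nat.le_of_dvd (Nat.gcd_pos_of_pos_left _ (by positivity))
    (Nat.dvd_gcd h6 (Nat.dvd_div_of_mul_dvd h3))

theorem lt_of_primitive {q n s : ℕ} (hq : 1 ≤ q) (hn : 0 < n) (hs : s.Prime) (h1 : s ∣ q ^ n - 1)
    (h2 : ∀ i, 0 < i → i < n → ¬ s ∣ q ^ i - 1) : n < s := by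
  by_contra h3
  refine h2 (s - 1) (by have := hs.two_le; omega) (by have := hs.two_le; omega) ?_
  have h4 : ¬ s ∣ q := fun h => hs.ne_one (Nat.dvd_one.1 (by
    have := (Nat.dvd_sub_iff_right (Nat.one_le_pow n q hq) (dvd_pow h hn.ne')).1 h1
    exact this))
  have h5 := Nat.ModEq.pow_totient ((Nat.Prime.coprime_iff_not_dvd hs).2 h4).symm
  rw [Nat.totient_prime hs] at h5
  exact (Nat.modEq_iff_dvd' (Nat.one_le_pow _ _ hq)).1 h5.symm

end Cfsg.R3
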