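import Cfsg.Agent.R3.Chars
import Cfsg.Agent.R3.NT

/-! Reduction to dimension four. -/

set_option autoImplicit false

namespace Cfsg.R3

open Module Pass

universe u v

variable {p : ℕ} [hp : Fact p.Prime] {W : Type v} [AddCommGroup W] [Module (ZMod p) W] [Finite W]
  {H : Type u} [Group H] [Finite H] {ρ : Representation (ZMod p) H W}

namespace Rk

variable (T : Rk ρ)
include T

theorem orbit_cases : (∀ v ≠ 0, 2 * (stab ρ v).index + 1 = p ^ finrank (ZMod p) W) ∨
    ∃ m, finrank (ZMod p) W = 2 * m ∧ ((∀ v ≠ 0, p ^ m + 1 ∣ (stab ρ v).index) ∨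
      ((∀ v ≠ 0, p ^ m - 1 ∣ (stab ρ v).index) ∧
        ∃ v ≠ 0, ∀ t : ℕ, 0 < t → t < p → ∃ g, ρ g v = t • v)) := by
  have := T.nt
  let _ : DistribMulAction H W := DistribMulAction.compHom W ρ
  obtain ⟨v, w, hv, hw, h1⟩ : ∃ v w : W, v ≠ 0 ∧ w ≠ 0 ∧ ¬ ∃ g, ρ g v = w := by
    by_contra! h
    exact T.not_tr (K := ⊤) (V := ⊤) (by simp) top_ne_bot (fun _ _ _ _ => trivial)
      fun v _ w _ hv hw => (h v w hv hw).imp fun g hg => ⟨trivial, hg⟩
  have S : TwoAt H 0 v w := ⟨fun g => map_zero (ρ g), hv, hw, h1,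
    fun x hx => (T.three v w x hv hw hx).resolve_left h1⟩
  have h2 : (stab ρ v).index + (stab ρ w).index + 1 = _ := S.index_add.trans (card_eq_pow (p := p) W)
  have h3 : ∀ x ≠ 0, (stab ρ x).index = (stab ρ v).index ∨ (stab ρ x).index = (stab ρ w).index :=
    fun x hx => (S.all x hx).imp index_stabilizer_eq index_stabilizer_eq
  by_cases hs : ∀ t, 0 < t → t < p → t • v ∈ MulAction.orbit H v
  · obtain ⟨m, hm, h⟩ := S.dvd_index hp.out (fun x => by
      rw [← Nat.cast_smul_eq_nsmul (ZMod p), ZMod.natCast_self, zero_smul])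
      (card_eq_pow (p := p) W) T.cop hs
    have h4 : (stab ρ v).index + (stab ρ w).index = (p ^ m + 1) * (p ^ m - 1) := by
      rw [← Nat.sq_sub_sq, ← pow_mul, mul_comm, ← hm, ← h2]
      simp
    have h5 : ∀ d, d ∣ (p ^ m + 1) * (p ^ m - 1) → d ∣ (stab ρ v).index →
        ∀ x ≠ 0, d ∣ (stab ρ x).index := fun d hd h x hx => by
      rcases h3 x hx with e | e <;> rw [e]
      exacts [h, (Nat.dvd_add_right h).1 (h4 ▸ hd)]
    exact Or.inr ⟨m, hm, h.symm.imp (h5 _ (Dvd.intro _ rfl))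
      fun h => ⟨h5 _ (Dvd.intro_left _ rfl) h, v, hv, hs⟩⟩
  push Not at hs
  obtain ⟨t, ht0, htp, ht⟩ := hs
  have h4 : (t : ZMod p) ≠ 0 := fun h =>
    (Nat.le_of_dvd ht0 ((ZMod.natCast_eq_zero_iff _ _).1 h)).not_gt htp
  rw [← Nat.cast_smul_eq_nsmul (ZMod p)] at ht
  have h5 : (stab ρ _).index = (stab ρ w).index :=
    index_stabilizer_eq ((S.all _ (smul_ne_zero h4 hv)).resolve_left ht)
  rw [show stab ρ ((t : ZMod p) • v) = stab ρ v from Subgroup.ext fun g => by
    rw [mem_stab, mem_stab, map_smul, (smul_right_injective W h4).eq_iff]] at h5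
  refine Or.inl fun x hx => ?_
  rcases h3 x hx with e | e <;> omega

omit [Finite W] [Finite H] in
theorem dvd_card {d : ℕ} (h : ∀ v ≠ 0, d ∣ (stab ρ v).index) : d ∣ Nat.card H := by
  have := T.nt
  obtain ⟨v, hv⟩ := exists_ne (0 : W)
  exact (h v hv).trans (Subgroup.index_dvd_card _)

theorem le_mul_of_prime {r : ℕ} (hr : r.Prime) (h : r ∣ Nat.card H) :
    2 * r ≤ finrank (ZMod p) W * (p - 1) := by
  have := Fact.mk hr
  obtain ⟨x, hx⟩ := exists_prime_orderOf_dvd_card' r h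
  have h3 := prime_le_mul_classes ρ T.inj hr hx fun h' => T.cop (by
    rwa [(Nat.prime_dvd_prime_iff_eq hp.out hr).1 ((ZMod.natCast_eq_zero_iff _ _).1 h')])
  have h4 := Nat.mul_le_mul_left (finrank (ZMod p) W) (Nat.le_sub_one_of_lt T.small)
  nlinarith

theorem ne_two_of_primitive {s m : ℕ} (hm : 2 ≤ m) (h : ∀ i, 0 < i → i < m → ¬ s ∣ p ^ i - 1) :
    s ≠ 2 := by
  rintro rfl
  refine h 1 one_pos hm ?_
  obtain ⟨k, hk⟩ := hp.out.odd_of_ne_two T.ne_two
  rw [pow_one]
  omega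

theorem not_full (h : ∀ s e : ℕ, s.Prime → s ≠ 2 →
    (∀ i, 0 < i → i < finrank (ZMod p) W → ¬ s ∣ p ^ i - 1) → s ^ e ∣ p ^ finrank (ZMod p) W - 1 →
    ∀ v ≠ 0, s ^ e ∣ (stab ρ v).index) : False := by
  have h3 := T.three_le
  have key : ∀ s : ℕ, s.Prime → s ∣ p ^ finrank (ZMod p) W - 1 →
      (∀ i, 0 < i → i < finrank (ZMod p) W → ¬ s ∣ p ^ i - 1) →
      s < 2 * finrank (ZMod p) W ∧ ¬ s ^ 2 ∣ p ^ finrank (ZMod p) W - 1 := fun s hs h1 h2 => by
    have := Fact.mk hs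
    have h4 := T.ne_two_of_primitive T.two h2
    have hb : Big p s (finrank (ZMod p) W) := fun i hi hd => by
      have := mt (h2 i hi) (not_not.2 hd)
      omega
    refine ⟨?_, fun hd => ?_⟩
    · by_cases h5 : finrank (ZMod p) W + 2 ≤ s
      · exact T.lt_two_mul hb (T.dvd_card (by simpa using h s 1 hs h4 h2 (by simpa using h1))) h5
      · omega
    · have := T.le_of_big (j := 1) h4 hb (h s 2 hs h4 h2 hd)
        (by simpa using (lt_of_primitive hp.out.pos (by omega) hs h1 h2).le)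
      omega
  have h11 := T.eleven_le
  obtain ⟨h6, rfl | rfl | rfl⟩ := eq_six_of_small_primitive (by omega) h3 fun s hs h1 h2 =>
    (key s hs h1 h2).imp_left fun h => by omega
  · omega
  · omega
  rw [h6] at key
  exact absurd (key 13 (by norm_num) (by norm_num) fun i _ _ => by interval_cases i <;> norm_num).1
    (by norm_num)

theorem half_bound {m s e : ℕ} (hm : finrank (ZMod p) W = 2 * m)
    (h : ∀ v ≠ 0, p ^ m - 1 ∣ (stab ρ v).index) (hs : s.Prime) (h1 : s ^ (e + 1) ∣ p ^ m - 1)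
    (h2 : ∀ i, 0 < i → i < m → ¬ s ∣ p ^ i - 1) :
    s < 4 * m ∧ e ≤ 1 ∧ (2 * m ≤ s → e = 0) := by
  have h3 := T.three_le
  have := Fact.mk hs
  have h4 := T.ne_two_of_primitive (by omega) h2
  have hb : Big p s (finrank (ZMod p) W) := fun i hi hd => by
    have := mt (h2 i hi) (not_not.2 hd)
    omega
  have h5 := (dvd_pow_self s e.succ_ne_zero).trans h1
  have h6 := lt_of_primitive hp.out.pos (by omega) hs h5 h2
  have h7 := fun j => T.le_of_big (j := j) h4 hb fun v hv => h1.trans (h v hv)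
  refine ⟨?_, ?_, fun h8 => ?_⟩
  · by_cases h8 : finrank (ZMod p) W + 2 ≤ s
    · have := T.lt_two_mul hb (h5.trans (T.dvd_card h)) h8
      omega
    · omega
  · exact Nat.le_of_succ_le_succ (h7 2 (by nlinarith))
  · have := h7 1 (by rw [pow_one]; omega)
    omega

theorem dim_four : finrank (ZMod p) W = 4 ∧ (∀ v ≠ 0, p ^ 2 - 1 ∣ (stab ρ v).index) ∧
    ∃ v ≠ 0, ∀ t : ℕ, 0 < t → t < p → ∃ g, ρ g v = t • v := by
  have h3 := T.three_le
  rcases T.orbit_cases with h | ⟨m, hm, h | h⟩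
  · refine (T.not_full fun s e hs h2 _ hd v hv => ?_).elim
    rw [← h v hv, Nat.add_sub_cancel] at hd
    exact (((Nat.coprime_primes hs Nat.prime_two).2 h2).pow_left e).dvd_of_dvd_mul_left hd
  · refine (T.not_full fun s e hs _ h2 hd v hv => Dvd.dvd.trans ?_ (h v hv)).elim
    rw [hm, mul_comm, pow_mul, ← one_pow 2, Nat.sq_sub_sq] at hd
    exact (((Nat.Prime.coprime_iff_not_dvd hs).2
      (h2 m (by omega) (by omega))).pow_left e).dvd_of_dvd_mul_right hd
  obtain rfl : m = 2 := by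
    by_contra h2
    have h4 := fun r hr (h1 : r ∣ p ^ m - 1) => T.le_mul_of_prime hr (h1.trans (T.dvd_card h.1))
    rcases eq_six_of_half T.eleven_le (by omega) fun s e hs h1 h2 _ =>
      T.half_bound hm h.1 hs h1 h2 with rfl | rfl | ⟨rfl, rfl | rfl⟩
    · exact absurd hp.out (by norm_num)
    · exact absurd hp.out (by norm_num)
    · have := h4 307 (by norm_num) (by norm_num)
      omega
    · have := h4 331 (by norm_num) (by norm_num)
      omega
  exact ⟨hm, h⟩

end Rk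

end Cfsg.R3
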