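import Cfsg.Agent.R3.Field
import Cfsg.Agent.Lin.FeitR
import Cfsg.Agent.CT.SL2Even

/-! Exponents of Sylow subgroups of rank three linear groups. -/

set_option autoImplicit false

namespace Cfsg.R3

open Module Pass

universe u v

theorem exists_normal_pow_mem {G : Type u} [Group G] [Finite G] (χ : IrrCharacter G)
    (hf : ∀ g, χ.1 g = χ.1 1 → g = 1) (r : ℕ) [hr : Fact r.Prime] :
    ∃ N : Subgroup G, N.Normal ∧ IsPGroup r N ∧
      ∀ (x : G) (k j : ℕ), x ^ r ^ k = 1 → charDegree χ.1 ≤ r ^ j → x ^ r ^ j ∈ N := by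
  obtain ⟨M, hM⟩ := exists_isPModular hr.out
  have := hM.charP
  have hχ := χ.isCharacter
  obtain ⟨X, hX⟩ := hχ.exists_matrix_valO M
  have key : ∀ g ∈ (redRep X).ker, ¬ r ∣ orderOf g → g = 1 := by
    intro g hg hrg
    obtain ⟨ε, h1, h2, -⟩ := hχ.exists_eigenvalues g
    have h3 := hM.finrank_eigenspace_redRep X (h := g) hrg (ε := 1) (map_one _) fun x => by
      rw [pow_orderOf_eq_one, one_mul, one_pow, one_mul]
    rw [MonoidHom.mem_ker.1 hg, red_one, show (1 : Module.End (resK M) _).eigenspace 1 = ⊤ from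
      eq_top_iff.2 fun v _ => by simp] at h3
    simp only [inv_one, one_pow, one_mul, hX, sum_range_apply_pow_eq h1 h2, finrank_top,
      finrank_fintype_fun_eq_card, Fintype.card_fin] at h3
    have h7 : charDegree χ.1 = Nat.card {i // ε i = 1} := by
      exact_mod_cast mul_left_cancel₀ (Nat.cast_ne_zero.2 (orderOf_pos g).ne') h3
    have h8 : Function.Bijective (Subtype.val : {i // ε i = 1} → _) :=
      (Nat.bijective_iff_injective_and_card _).2 ⟨Subtype.val_injective, by simpa using h7.symm⟩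
    refine hf g ?_
    have h9 := h2 1
    rw [pow_one] at h9
    rw [h9, hχ.one_eq_charDegree, Finset.sum_congr rfl (g := fun _ => 1)]
    · simp
    · intro i _
      obtain ⟨j, rfl⟩ := h8.2 i
      rw [j.2, one_pow]
  refine ⟨(redRep X).ker, inferInstance, fun ⟨x, hx⟩ => ?_, fun x k j hk hj => ?_⟩
  · obtain ⟨k, m, hm, e⟩ := Nat.exists_eq_pow_mul_and_not_dvd (orderOf_pos x).ne' r hr.out.ne_one
    exact ⟨k, Subtype.ext (key (x ^ r ^ k) (pow_mem hx _) fun h => hm (h.trans
      (orderOf_dvd_of_pow_eq_one (by rw [← pow_mul, ← e, pow_orderOf_eq_one]))))⟩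
  have : Nonempty (Fin (charDegree χ.1)) := ⟨⟨0, χ.charDegree_pos⟩⟩
  have : CharP (Module.End (resK M) (Fin (charDegree χ.1) → resK M)) r :=
    charP_of_injective_algebraMap (algebraMap (resK M) _).injective r
  have h2 : IsNilpotent (redRep X x - 1) := ⟨r ^ k, by
    rw [sub_pow_char_pow_of_commute _ _ (Commute.one_right _), ← map_pow, hk]; simp⟩
  have h3 : (redRep X x - 1) ^ r ^ j = 0 := by
    have h4 := LinearMap.aeval_self_charpoly (redRep X x - 1)
    rw [(LinearMap.isNilpotent_iff_charpoly _).1 h2, map_pow, Polynomial.aeval_X] at h4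
    exact pow_eq_zero_of_le (by simpa using hj) h4
  rwa [sub_pow_char_pow_of_commute _ _ (Commute.one_right _), ← map_pow, one_pow,
    sub_eq_zero] at h3

theorem card_psl2_le (r : ℕ) [hr : Fact r.Prime] (h2 : r ≠ 2) :
    2 * Nat.card (Matrix.ProjectiveSpecialLinearGroup (Fin 2) (ZMod r)) + r ≤ r ^ 3 := by
  have h1 := card_sl2_add_le (F := ZMod r)
  have h3 := (Subgroup.center (Matrix.SpecialLinearGroup (Fin 2) (ZMod r))).index_mul_card
  have h4 := (Subgroup.one_lt_card_iff_ne_bot (Subgroup.center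
    (Matrix.SpecialLinearGroup (Fin 2) (ZMod r)))).2 fun h => by
      have h5 : (-1 : Matrix.SpecialLinearGroup (Fin 2) (ZMod r)) = 1 :=
        h.le (Subgroup.mem_center_iff.2 fun g => by rw [mul_neg_one, neg_one_mul])
      have h6 : (-1 : ZMod r) = 1 := by simpa using congrArg (fun g => g.1 0 0) h5
      exact h2 ((Nat.prime_dvd_prime_iff_eq hr.out Nat.prime_two).1
        ((ZMod.natCast_eq_zero_iff 2 r).1 (by push_cast; linear_combination -h6)))
  rw [ZMod.card] at h1
  change 2 * Subgroup.index _ + r ≤ _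
  nlinarith

theorem two_mul_card_center_le {G : Type u} [Group G] [Finite G] {r : ℕ} [hr : Fact r.Prime]
    (h : r ∣ Nat.card G) (hz : ¬ r ∣ Nat.card (Subgroup.center G)) :
    2 * Nat.card (Subgroup.center G) ≤ Nat.card (ConjClasses G) := by
  have h1 := card_mul_le_classes (le_refl (Subgroup.center G)) {1, r} (by
    simp only [Finset.mem_insert, Finset.mem_singleton, forall_eq_or_imp, forall_eq]
    exact ⟨⟨⟨1, orderOf_one⟩, Nat.coprime_one_left _⟩, exists_prime_orderOf_dvd_card' r h,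
      (Nat.Prime.coprime_iff_not_dvd hr.out).2 hz⟩)
  rwa [Finset.card_pair hr.out.ne_one.symm] at h1

theorem cube_lt_pow {q z n : ℕ} (hq : 11 ≤ q) (hz : 4 * z + 1 ≤ q) (hn : 3 ≤ n) :
    z * (2 * n + 1) ^ 3 + 1 < q ^ n := by
  induction n, hn using Nat.le_induction with
  | base => nlinarith [Nat.mul_le_mul hq hq]
  | succ n hn ih =>
    have h1 : (2 * (n + 1) + 1) ^ 3 ≤ 11 * (2 * n + 1) ^ 3 :=
      (Nat.pow_le_pow_left (show _ ≤ 2 * (2 * n + 1) by omega) 3).trans (by
        rw [mul_pow]; omega)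
    have h2 := Nat.mul_le_mul ih hq
    rw [pow_succ q]
    nlinarith [Nat.mul_le_mul_left z h1]

variable {p : ℕ} [hp : Fact p.Prime] {W : Type v} [AddCommGroup W] [Module (ZMod p) W] [Finite W]
  {H : Type u} [Group H] [Finite H] {ρ : Representation (ZMod p) H W}

namespace Rk

variable (T : Rk ρ)
include T

theorem exists_lift : ∃ ζ : IrrCharacter H, (∀ g, ζ.1 g = ζ.1 1 → g = 1) ∧
    charDegree ζ.1 ≤ finrank (ZMod p) W := by
  have := Fintype.ofFinite H
  have := T.nt
  obtain ⟨χ, hχ, h1, -⟩ := exists_brauer_lift_rep ρ (MonoidHom.id H) T.cop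
  have h2 : charDegree χ = finrank (ZMod p) W := by
    have h3 := h1 ⊥
    have h4 : Representation.invariants
        (ρ.comp ((MonoidHom.id H).comp (⊥ : Subgroup H).subtype)) = ⊤ := eq_top_iff.2 fun v _ =>
      (Representation.mem_invariants _ _).2 fun g => by rw [Subsingleton.elim g 1, map_one]; rfl
    rw [fixDim_eq_of_le_charKer hχ bot_le, h4,
      Nat.card_congr Submodule.topEquiv.toEquiv, card_eq_pow (p := p)] at h3
    exact (Nat.pow_right_injective hp.out.two_le h3).symm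
  obtain ⟨ζ, hζ⟩ := hχ.exists_irr_constituent (fun h0 => by
    have h3 := hχ.one_eq_charDegree
    rw [h2, h0, Pi.zero_apply, eq_comm, Nat.cast_eq_zero] at h3
    exact finrank_pos.ne' h3)
  refine ⟨ζ, ζ.isCharacter.charKer_eq_bot_iff.1 ?_, h2 ▸ hχ.charDegree_le_of_constituent ζ hζ⟩
  have h3 : fixDim (charKer ζ.1) χ ≠ 0 := fun h0 => by
    have h4 := hχ.fixDim_eq_zero_of_constituent h0 hζ
    rw [fixDim_eq_of_le_charKer ζ.isCharacter le_rfl] at h4
    exact ζ.charDegree_pos.ne' h4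
  have h4 : Nat.card (Fx ρ (charKer ζ.1)) = _ := h1 (charKer ζ.1)
  have h5 := T.irred (Submodule.nontrivial_iff_ne_bot.1 (Finite.one_lt_card_iff_nontrivial.1
    (h4 ▸ Nat.one_lt_pow h3 hp.out.one_lt))) fun g v hv =>
      fx_stable (by rw [Subgroup.normalizer_eq_top]; trivial) hv
  exact eq_bot_iff.2 fun g hg => T.inj (LinearMap.ext fun v => by
    rw [map_one]; exact mem_fx.1 (h5.ge (Submodule.mem_top (x := v))) hg)

theorem lt_two_mul {r : ℕ} [hr : Fact r.Prime] (hb : Big p r (finrank (ZMod p) W))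
    (h : r ∣ Nat.card H) (hn : finrank (ZMod p) W + 2 ≤ r) : r < 2 * finrank (ZMod p) W := by
  obtain ⟨ζ, hζ, hd⟩ := T.exists_lift
  obtain ⟨P⟩ : Nonempty (Sylow r H) := inferInstance
  have h3 := T.three_le
  rcases ζ.small_reduce hζ (by omega) (P := P) fun _ => P.ne_bot_of_dvd_card h
    (T.eq_bot_of_big hb P.isPGroup') with ⟨⟨e⟩, h1⟩ | ⟨-, Q, ξ, F, -, -, h1, h2⟩
  swap
  · omega
  by_contra h2
  have h4 := two_mul_card_center_le h fun hz => by
    obtain ⟨x, hx, hxr⟩ := exists_orderOf_eq_prime_of_dvd_card hz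
    have : (Subgroup.zpowers x).Normal := ⟨fun a ha g => by
      rwa [Subgroup.mem_center_iff.1 (Subgroup.zpowers_le.2 hx ha) g, mul_inv_cancel_right]⟩
    have h5 := T.eq_bot_of_big hb (Q := Subgroup.zpowers x)
      (IsPGroup.of_card (n := 1) (by rw [Nat.card_zpowers, hxr, pow_one]))
    rw [Subgroup.zpowers_eq_bot.1 h5, orderOf_one] at hxr
    omega
  have h5 := T.pow_le
  have h6 := card_psl2_le r (by omega)
  have h7 := T.small
  rw [← Nat.card_congr e.toEquiv] at h6
  rw [Subgroup.card_eq_card_quotient_mul_card_subgroup (Subgroup.center H)] at h5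
  have h8 := cube_lt_pow (z := Nat.card (Subgroup.center H)) T.eleven_le (by omega) h3
  rw [← show r = 2 * finrank (ZMod p) W + 1 by omega] at h8
  nlinarith [Nat.mul_le_mul_left (Nat.card (Subgroup.center H)) h6]

theorem le_of_big {r e j : ℕ} [hr : Fact r.Prime] (h2 : r ≠ 2)
    (hb : Big p r (finrank (ZMod p) W)) (h : ∀ v ≠ 0, r ^ e ∣ (stab ρ v).index)
    (hj : finrank (ZMod p) W ≤ r ^ j) : e ≤ j := by
  have := T.nt
  obtain ⟨x, hx⟩ := exists_orderOf_eq_pow ρ h2 hb h
  obtain ⟨ζ, hζ, hd⟩ := T.exists_lift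
  obtain ⟨N, _, hN, h1⟩ := exists_normal_pow_mem ζ hζ r
  have h3 := h1 x e j (hx ▸ pow_orderOf_eq_one x) (hd.trans hj)
  rw [T.eq_bot_of_big hb hN, Subgroup.mem_bot, ← orderOf_dvd_iff_pow_eq_one, hx] at h3
  exact (Nat.pow_dvd_pow_iff_le_right hr.out.one_lt).1 h3

end Rk

end Cfsg.R3
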