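import Cfsg.Agent.R3.Basic

/-! Abelian normal subgroups of rank three linear groups. -/

set_option autoImplicit false

namespace Cfsg.R3

open Module Pass
open scoped commutatorElement

universe u v

theorem mul_lt_pow {q k n : ℕ} (hq : 11 ≤ q) (hk : 2 * k + 1 ≤ q) (hn : 3 ≤ n) :
    28 * n ^ 2 * k + 1 < q ^ n := by
  induction n, hn using Nat.le_induction with
  | base => nlinarith [Nat.mul_le_mul hq hq]
  | succ n hn ih =>
    have h1 : (n + 1) ^ 2 ≤ 11 * n ^ 2 := by nlinarith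
    have h2 := Nat.mul_le_mul ih hq
    rw [pow_succ q]
    nlinarith [Nat.mul_le_mul_right k h1]

variable {p : ℕ} [hp : Fact p.Prime] {W : Type v} [AddCommGroup W] [Module (ZMod p) W] [Finite W]
  {H : Type u} [Group H] [Finite H] {ρ : Representation (ZMod p) H W}

/-- the prime `r` has large multiplicative order -/
def Big (p r n : ℕ) : Prop := ∀ i, 0 < i → r ∣ p ^ i - 1 → n < 3 * i

namespace Rk

variable (T : Rk ρ)
include T

theorem not_dickson {c : ℕ} {K : Subgroup H} (h : Dickson K) (hi : K.index ≤ c) :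
    p ^ finrank (ZMod p) W ≤ 28 * c ^ 2 * Nat.card (ConjClasses H) + 1 := by
  have h1 := h.card_le.trans (Nat.mul_le_mul_left 14
    ((classes_le_index_mul K).trans (Nat.mul_le_mul_right _ hi)))
  have h2 := T.pow_le
  rw [← K.index_mul_card] at h2
  nlinarith [Nat.mul_le_mul hi h1]

theorem exists_field {A : Subgroup H} [hAn : A.Normal] (hA : ∀ a ∈ A, ∀ b ∈ A, Commute a b) :
    ∃ R : Subalgebra (ZMod p) (Module.End (ZMod p) W), IsField R ∧ (∀ a ∈ A, ρ a ∈ R) ∧
      3 * finrank (ZMod p) R ≤ finrank (ZMod p) W := by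
  classical
  have := T.nt
  have : Finite (Module.End (ZMod p) W) := Finite.of_injective _ DFunLike.coe_injective
  let C := Subalgebra.centralizer (ZMod p) (ρ '' A)
  have hC : ∀ c, c ∈ C ↔ ∀ a ∈ A, ρ a * c = c * ρ a := fun c => by
    rw [Subalgebra.mem_centralizer_iff, Set.forall_mem_image]
    rfl
  let R := Subalgebra.centralizer (ZMod p) (C : Set (Module.End (ZMod p) W))
  have hR : ∀ r, r ∈ R ↔ ∀ c ∈ C, c * r = r * c := fun r => Subalgebra.mem_centralizer_iff _
  have h1 : ∀ g, (∀ a ∈ A, Commute a g) → ρ g ∈ C := fun g hg => (hC _).2 fun a ha => by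
    rw [← map_mul, ← map_mul, hg a ha]
  have h2 : ∀ a ∈ A, ρ a ∈ R := fun a ha => (hR _).2 fun c hc => ((hC c).1 hc a ha).symm
  have h3 : ∀ (g : H) {a b : Module.End (ZMod p) W}, ρ g⁻¹ * a * ρ g * b = b * (ρ g⁻¹ * a * ρ g) →
      a * (ρ g * b * ρ g⁻¹) = ρ g * b * ρ g⁻¹ * a := fun g a b h => by
    simpa [mul_assoc, ← map_mul, ← mul_assoc (ρ g) (ρ g⁻¹)] using
      congrArg (fun x => ρ g * x * ρ g⁻¹) h
  have hF : IsField R := isField_of_apply (T.apply_eq_zero
    (fun r hr s hs => (hR s).1 hs r ((hC r).2 fun a ha =>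
      (hR r).1 hr _ (h1 a fun b hb => hA b hb a ha)))
    fun g r hr => (hR _).2 fun c hc => h3 g ((hR r).1 hr _ ((hC _).2 fun a ha => by
      simpa using h3 g⁻¹ (a := ρ a) (b := c) (by
        simpa only [map_mul, inv_inv] using (hC c).1 hc _ (hAn.conj_mem a ha g)))))
  refine ⟨R, hF, h2, not_lt.1 fun hlt => ?_⟩
  let φ : H → R := fun y => if h : y ∈ A then ⟨_, h2 y h⟩ else 0
  have hφ : ∀ y ∈ A, (φ y).1 = ρ y := fun y hy => by simp only [φ, dif_pos hy]
  obtain ⟨⟨a, ha⟩, h4⟩ : ∃ a : A, ∀ x, x ∈ Subgroup.zpowers a := by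
    let _ := hF.toField
    exact (isCyclic_of_injective_ringHom ((ρ.comp A.subtype).codRestrict R fun a => h2 a a.2)
      fun a b h => Subtype.ext (T.inj (congrArg Subtype.val h))).exists_generator
  refine (T.not_dickson (K := Subgroup.centralizer {a}) (dickson_of_field
    (σ := ρ.comp (Subgroup.centralizer {a}).subtype) (T.inj.comp (Subgroup.subtype_injective _))
    T.ne_two (fun h => T.cop (h.trans (Subgroup.card_subgroup_dvd_card _))) hF
    (fun g r hr => ((hR r).1 hr _ (h1 g fun b hb => ?_)).symm) ?_) ?_).not_gt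
    (mul_lt_pow T.eleven_le T.small T.three_le)
  · obtain ⟨k, hk⟩ := h4 ⟨b, hb⟩
    rw [← show a ^ k = b from congrArg Subtype.val hk]
    exact Commute.zpow_left (g.2 a rfl) k
  · rw [card_eq_pow (p := p), card_eq_pow (p := p) R, ← pow_mul, mul_comm]
    exact Nat.pow_lt_pow_right hp.out.one_lt hlt
  have := Fintype.ofFinite H
  rw [← card_filter_isConj]
  refine le_trans (Finset.card_le_card fun y hy => ?_) (card_filter_isConj_le' ρ hF
    (Finset.univ.filter fun y => y ∈ A) φ (fun a ha b hb h => T.inj ?_) (fun y hy f hf => ?_) a)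
  · simp only [Finset.mem_filter, Finset.mem_univ, true_and] at hy ⊢
    obtain ⟨c, rfl⟩ := isConj_iff.1 hy
    exact ⟨hAn.conj_mem a ha c, hy⟩
  · rw [Finset.mem_coe, Finset.mem_filter] at ha hb
    rw [← hφ a ha.2, ← hφ b hb.2, h]
  · rw [Finset.mem_filter] at hy
    apply Subtype.ext
    rw [Polynomial.aeval_subalgebra_coe, hφ y hy.2, hf]
    rfl

theorem eq_bot_of_big {r : ℕ} [hr : Fact r.Prime] (hb : Big p r (finrank (ZMod p) W))
    {Q : Subgroup H} [Q.Normal] (hQ : IsPGroup r Q) : Q = ⊥ := by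
  by_contra h0
  have := (Subgroup.nontrivial_iff_ne_bot Q).2 h0
  have := hQ.center_nontrivial
  have : Finite (Module.End (ZMod p) W) := Finite.of_injective _ DFunLike.coe_injective
  obtain ⟨R, hF, h1, h2⟩ := T.exists_field (A := (Subgroup.center Q).map Q.subtype) (by
    rintro _ ⟨a, ha, rfl⟩ _ ⟨b, -, rfl⟩
    exact congrArg Subtype.val (Subgroup.mem_center_iff.1 ha b).symm)
  obtain ⟨x, hx, hxr⟩ := exists_orderOf_eq_prime_of_dvd_card (dvd_card_of_isPGroup_of_ne_bot
    (hQ.to_subgroup _) ((Subgroup.nontrivial_iff_ne_bot (Subgroup.center Q)).1 inferInstance))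
  let _ := hF.toField
  have := Fintype.ofFinite R
  refine (hb _ finrank_pos ?_).not_ge h2
  rw [← card_eq_pow, ← hxr, orderOf_dvd_iff_pow_eq_one, Nat.card_eq_fintype_card]
  refine Subtype.ext (T.inj ?_)
  have h3 := congrArg Subtype.val (FiniteField.pow_card_sub_one_eq_one
    (⟨ρ x, h1 _ ⟨x, hx, rfl⟩⟩ : R) fun h => by
      have := T.nt
      obtain ⟨v, hv⟩ := exists_ne (0 : W)
      exact apply_ne_zero x.1 hv (LinearMap.congr_fun (congrArg Subtype.val h) v))
  simpa using h3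

theorem exists_smul (hn : finrank (ZMod p) W < 6) {A : Subgroup H} [A.Normal]
    (hA : ∀ a ∈ A, ∀ b ∈ A, Commute a b) {a : H} (ha : a ∈ A) : ∃ c : ZMod p, ρ a = c • 1 := by
  obtain ⟨R, hF, h1, h2⟩ := T.exists_field hA
  have := hF.nontrivial
  have h3 := finrank_pos (R := ZMod p) (M := R)
  have h4 := h1 a ha
  have := T.nt
  rw [Subalgebra.eq_bot_of_finrank_one (S := R) (by omega), Algebra.mem_bot] at h4
  obtain ⟨c, hc⟩ := h4
  exact ⟨c, by rw [← hc, Algebra.algebraMap_eq_smul_one]⟩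

end Rk

end Cfsg.R3
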