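import Cfsg.Agent.R3.Orb

/-! Short orbits of linear `2`-groups of degree four. -/

set_option autoImplicit false

namespace Cfsg.R3

open Module Pass
open scoped commutatorElement

universe u v

variable {p : ℕ} [hp : Fact p.Prime] {U : Type v} [AddCommGroup U] [Module (ZMod p) U] [Finite U]
  {K : Type u} [Group K] [Finite K] {σ : Representation (ZMod p) K U}

/-- the faithful representation of the quotient by the kernel -/
def quotRep (σ : Representation (ZMod p) K U) :
    Representation (ZMod p) (K ⧸ MonoidHom.ker σ) U := QuotientGroup.lift _ σ fun _ h => h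

omit [Finite U] [Finite K] in
theorem quotRep_injective (σ : Representation (ZMod p) K U) : Function.Injective (quotRep σ) :=
  (injective_iff_map_eq_one _).2 fun g hg => by
    obtain ⟨g, rfl⟩ := QuotientGroup.mk_surjective g
    exact (QuotientGroup.eq_one_iff g).2 hg

theorem le_classes_add_two [Nontrivial U] (cop : ¬ p ∣ Nat.card K)
    (tr : ∀ v w : U, v ≠ 0 → w ≠ 0 → ∃ g, σ g v = w) : p ≤ Nat.card (ConjClasses K) + 2 := by
  have T : Tr (quotRep σ) := ⟨quotRep_injective σ,
    fun h => cop (h.trans (Subgroup.card_quotient_dvd_card _)),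
    fun v w hv hw => (tr v w hv hw).elim fun g hg => ⟨g, hg⟩, inferInstance⟩
  have h1 := Nat.card_le_card_of_surjective _ (ConjClasses.map_surjective
    (QuotientGroup.mk'_surjective (MonoidHom.ker σ)))
  rcases T.main with h | h | ⟨h, -, ⟨e⟩⟩
  · omega
  · have := T.card_classes_of_one h
    omega
  · rw [card_classes_congr e, card_classes_sl25] at h1
    omega

theorem isField_of_apply [Nontrivial U] {R : Subalgebra (ZMod p) (Module.End (ZMod p) U)}
    (h : ∀ r ∈ R, ∀ u, r u = 0 → r = 0 ∨ u = 0) : IsField R := by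
  have : Finite (Module.End (ZMod p) U) := Finite.of_injective _ DFunLike.coe_injective
  have : NoZeroDivisors R := ⟨fun {a b} hab => by
    rw [or_iff_not_imp_left]
    exact fun ha => Subtype.ext (LinearMap.ext fun u => (h a a.2 _
      (LinearMap.congr_fun (congrArg Subtype.val hab) u)).resolve_left fun e => ha (Subtype.ext e))⟩
  have := NoZeroDivisors.to_isDomain R
  exact Finite.isDomain_to_isField _

theorem dickson_of_sq (inj : Function.Injective σ) [Nontrivial U] (h4 : p % 4 = 3)
    (cop : ¬ p ∣ Nat.card K) (hn : finrank (ZMod p) U < 6) {J : Module.End (ZMod p) U}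
    (hJ : J * J = -1) (hc : ∀ g, J * σ g = σ g * J) : Dickson K := by
  have : Finite (Module.End (ZMod p) U) := Finite.of_injective _ DFunLike.coe_injective
  let R : Subalgebra (ZMod p) (Module.End (ZMod p) U) :=
    { carrier := {r | ∃ a b : ZMod p, r = a • 1 + b • J}
      mul_mem' := by
        rintro _ _ ⟨a, b, rfl⟩ ⟨c, d, rfl⟩
        refine ⟨a * c - b * d, a * d + b * c, ?_⟩
        simp only [add_mul, mul_add, smul_mul_smul_comm, hJ, one_mul, mul_one]
        module
      add_mem' := by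
        rintro _ _ ⟨a, b, rfl⟩ ⟨c, d, rfl⟩
        exact ⟨a + c, b + d, by module⟩
      algebraMap_mem' a := ⟨a, 0, by simp [Algebra.algebraMap_eq_smul_one]⟩ }
  have h1 : ∀ (a b : ZMod p) u, u ≠ 0 → (a • 1 + b • J) u = 0 → a = 0 ∧ b = 0 := by
    intro a b u hu h
    have h2 : (a • 1 - b • J) * (a • 1 + b • J) = (a ^ 2 + b ^ 2) • 1 := by
      simp only [sub_mul, mul_add, smul_mul_smul_comm, hJ, one_mul, mul_one]
      module
    have h3 := LinearMap.congr_fun h2 u
    rw [Module.End.mul_apply, h, map_zero, LinearMap.smul_apply, eq_comm, smul_eq_zero,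
      or_iff_left (by exact hu)] at h3
    have h5 : b = 0 := by
      by_contra hb
      exact ZMod.mod_four_ne_three_of_sq_eq_neg_sq' hb (eq_neg_of_add_eq_zero_left h3) h4
    exact ⟨by simpa [h5] using h3, h5⟩
  refine dickson_of_field (R := R) inj (by rintro rfl; omega) cop (isField_of_apply ?_) ?_ ?_
  · rintro _ ⟨a, b, rfl⟩ u hu
    rw [or_iff_not_imp_right]
    intro h0
    obtain ⟨rfl, rfl⟩ := h1 a b u h0 hu
    simp
  · rintro g _ ⟨a, b, rfl⟩
    simp only [add_mul, mul_add, smul_mul_assoc, mul_smul_comm, hc, one_mul, mul_one]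
  obtain ⟨u, hu⟩ := exists_ne (0 : U)
  have h2 := Nat.card_le_card_of_injective (fun q : ZMod p × ZMod p => (⟨_, q.1, q.2, rfl⟩ : R))
    fun q q' e => by
      have h3 := h1 (q.1 - q'.1) (q.2 - q'.2) u hu (by
        rw [show (q.1 - q'.1) • 1 + (q.2 - q'.2) • J = q.1 • 1 + q.2 • J - (q'.1 • 1 + q'.2 • J) by
          module, sub_eq_zero.2 (congrArg Subtype.val e), LinearMap.zero_apply])
      exact Prod.ext (sub_eq_zero.1 h3.1) (sub_eq_zero.1 h3.2)
  rw [Nat.card_prod, Nat.card_zmod, ← sq] at h2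
  rw [card_eq_pow (p := p)]
  exact (Nat.pow_lt_pow_right hp.out.one_lt hn).trans_le
    ((pow_mul p 2 3).le.trans (Nat.pow_le_pow_left h2 3))

/-- some orbit is short compared with the exponent -/
def Short (σ : Representation (ZMod p) K U) (c : ℕ) : Prop :=
  ∃ v ≠ 0, ∃ x : K, (stab σ v).index ≤ c * orderOf x

omit [Finite U] in
theorem Short.of_subgroup {A : Subgroup K} (hA : A.index ≤ 2) {c : ℕ}
    (h : Short (σ.comp A.subtype) c) : Short σ (2 * c) := by
  obtain ⟨v, hv, x, hx⟩ := h
  refine ⟨v, hv, x, ?_⟩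
  have h1 := Subgroup.relIndex_mul_index (inf_le_right : stab σ v ⊓ A ≤ _)
  rw [Subgroup.inf_relIndex_right] at h1
  rw [Subgroup.orderOf_coe, mul_assoc, mul_comm]
  exact (Nat.le_of_dvd (Nat.pos_of_ne_zero Subgroup.index_ne_zero_of_finite)
    (Subgroup.index_dvd_of_le inf_le_left)).trans (h1.ge.trans (Nat.mul_le_mul hx hA))

theorem short_of_comm (σ : Representation (ZMod p) K U) [Nontrivial U]
    (hc : ∀ a b : K, a * b = b * a) : Short σ 1 := by
  obtain ⟨v, hv, x, hx⟩ := exists_index_dvd_of_comm σ hc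
  exact ⟨v, hv, x, (Nat.le_of_dvd (orderOf_pos x) hx).trans (one_mul _).ge⟩

theorem Dickson.short (h : Dickson K) (h2 : IsPGroup 2 K) (σ : Representation (ZMod p) K U)
    [Nontrivial U] : Short σ 2 := by
  obtain ⟨A, hA, hi⟩ := h.exists_comm h2
  exact Short.of_subgroup hi (short_of_comm _ fun a b => Subtype.ext (hA a a.2 b b.2))

theorem not_dvd_card_of_two (h2 : p ≠ 2) (hK : IsPGroup 2 K) : ¬ p ∣ Nat.card K :=
  fun h => by
    obtain ⟨k, hk⟩ := hK.exists_card_eq
    exact h2 ((Nat.prime_dvd_prime_iff_eq hp.out Nat.prime_two).1 (hp.out.dvd_of_dvd_pow (hk ▸ h)))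

theorem short_of_invariant (h2 : p ≠ 2) (hK : IsPGroup 2 K) {V : Submodule (ZMod p) U}
    (hV : V ≠ ⊥) (hd : finrank (ZMod p) V ≤ 2) (h : ∀ g, V ≤ V.comap (σ g)) : Short σ 2 := by
  have := Submodule.nontrivial_iff_ne_bot.2 hV
  have hQ := hK.to_quotient (MonoidHom.ker (σ.subrepresentation V h))
  obtain ⟨v, hv, x, hx⟩ := (dickson_of_finrank _ (quotRep_injective (σ.subrepresentation V h))
    (fun h => h2 ((Nat.prime_dvd_prime_iff_eq hp.out Nat.prime_two).1
      ((ZMod.natCast_eq_zero_iff 2 p).1 h)))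
    (fun h => not_dvd_card_of_two h2 hQ ((ZMod.natCast_eq_zero_iff _ p).1 h)) hd).short hQ
    (quotRep (σ.subrepresentation V h))
  obtain ⟨x, rfl⟩ := QuotientGroup.mk_surjective x
  refine ⟨v, fun e => hv (Subtype.ext e), x, le_trans (le_of_eq ?_) (hx.trans (Nat.mul_le_mul_left _
    (Nat.le_of_dvd (orderOf_pos x) (orderOf_map_dvd (QuotientGroup.mk' _) x))))⟩
  rw [← Subgroup.index_comap_of_surjective _ (QuotientGroup.mk'_surjective _)]
  congr 1
  ext g
  exact ⟨fun h => Subtype.ext h, fun h => congrArg Subtype.val h⟩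

/-- the elements acting as `± 1` -/
def pm (σ : Representation (ZMod p) K U) : Subgroup K where
  carrier := {g | σ g = 1 ∨ σ g = -1}
  one_mem' := Or.inl (map_one σ)
  mul_mem' := by rintro a b (h | h) (h' | h') <;> simp [h, h']
  inv_mem' := by
    rintro a (h | h)
    · exact Or.inl (by rw [← mul_one (σ a⁻¹), ← h, ← map_mul, inv_mul_cancel, map_one, h])
    · exact Or.inr (by rw [eq_neg_iff_add_eq_zero, ← neg_eq_iff_add_eq_zero, ← mul_neg_one, ← h,
        ← map_mul, inv_mul_cancel, map_one])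

omit [Finite U] [Finite K] in
theorem mem_pm {g : K} : g ∈ pm σ ↔ σ g = 1 ∨ σ g = -1 := Iff.rfl

instance : (pm σ).Normal := ⟨fun a ha g => by
  rcases ha with h | h
  · exact Or.inl (by rw [map_mul, map_mul, h, mul_one, ← map_mul, mul_inv_cancel, map_one])
  · exact Or.inr (by
      rw [map_mul, map_mul, h, mul_neg_one, neg_mul, ← map_mul, mul_inv_cancel, map_one])⟩

omit [Finite U] [Finite K] in
theorem pm_le_center (inj : Function.Injective σ) : pm σ ≤ Subgroup.center K := fun a ha =>
  Subgroup.mem_center_iff.2 fun g => inj (by rcases ha with h | h <;> simp [h])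

theorem short_of_two (inj : Function.Injective σ) (h4 : p % 4 = 3) (hK : IsPGroup 2 K)
    (hn : finrank (ZMod p) U = 4) : Short σ 4 := by
  classical
  have : Nontrivial U := nontrivial_of_finrank_pos (R := ZMod p) (by omega)
  have h2 : p ≠ 2 := by rintro rfl; omega
  by_cases h0 : pm σ = ⊤
  · obtain ⟨v, hv, x, hx⟩ := short_of_comm σ fun a b =>
      Subgroup.mem_center_iff.1 (pm_le_center inj (h0.ge (Subgroup.mem_top b))) a
    exact ⟨v, hv, x, by omega⟩
  obtain ⟨L, -, h1, -, h3, h5⟩ := exists_normal_relIndex_eq_of_isPGroup hK (lt_top_iff_ne_top.2 h0)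
  obtain ⟨j, hj, hj'⟩ : ∃ j ∈ L, j ∉ pm σ := by
    by_contra! h
    rw [Subgroup.relIndex_eq_one.2 h] at h3
    omega
  refine Short.of_subgroup (A := Subgroup.centralizer {j}) (c := 2) ?_ ?_
  · have := Fintype.ofFinite K
    rw [← card_filter_isConj]
    refine (Finset.card_le_card_of_injOn σ (fun y hy => ?_) inj.injOn).trans
      (Finset.card_le_two (a := σ j) (b := -σ j))
    obtain ⟨c, rfl⟩ := isConj_iff.1 (Finset.mem_filter.1 hy).2
    rw [show c * j * c⁻¹ = j * ⁅j⁻¹, c⁆ by simp [commutatorElement_def, mul_assoc], map_mul]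
    rcases h5 (Subgroup.commutator_mem_commutator (inv_mem hj) (Subgroup.mem_top c)) with h | h <;>
      simp [h]
  have hc : ∀ g : Subgroup.centralizer ({j} : Set K), σ j * σ g = σ g * σ j := fun g => by
    rw [← map_mul, ← map_mul, g.2 j rfl]
  have h6 := (pm σ).pow_relIndex_mem hj
  rw [h3, sq, mem_pm, map_mul] at h6
  rcases h6 with h6 | h6
  swap
  · exact (dickson_of_sq (σ := σ.comp (Subgroup.centralizer {j}).subtype)
      (inj.comp (Subgroup.subtype_injective _)) h4
      (not_dvd_card_of_two h2 (hK.to_subgroup _)) (by omega) h6 hc).short (hK.to_subgroup _) _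
  have h7 : ∀ e : ZMod p, e * e = 1 → σ j ≠ (-e) • 1 →
      finrank (ZMod p) (LinearMap.ker (σ j - e • 1)) ≤ 2 →
      Short (σ.comp (Subgroup.centralizer {j}).subtype) 2 := fun e he hje hd => by
    refine short_of_invariant h2 (hK.to_subgroup _) (fun h => hje ?_) hd fun g u hu => ?_
    · ext u
      have h8 : (σ j - e • 1) * (σ j + e • 1) = 0 := by
        simp only [sub_mul, mul_add, h6, smul_mul_assoc, mul_smul_comm, one_mul, mul_one, smul_sub,
          smul_smul, he]
        module
      rw [neg_smul, ← add_eq_zero_iff_eq_neg.1 (LinearMap.ext fun u => LinearMap.ker_eq_bot'.1 h _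
        (LinearMap.congr_fun h8 u))]
    · change (σ j - e • 1) (σ g u) = 0
      rw [← Module.End.mul_apply, sub_mul, hc, smul_mul_assoc, one_mul, ← mul_one (σ g),
        mul_assoc, one_mul, ← mul_smul_comm, ← mul_sub, Module.End.mul_apply,
        show (σ j - e • 1) u = 0 from hu, map_zero]
  have h8 := Submodule.finrank_sup_add_finrank_inf_eq (LinearMap.ker (σ j - (1 : ZMod p) • 1))
    (LinearMap.ker (σ j - (-1 : ZMod p) • 1))
  rw [(Submodule.eq_bot_iff (_ ⊓ _)).2 fun u hu => ?_, finrank_bot] at h8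
  · have h9 := Submodule.finrank_le (LinearMap.ker (σ j - (1 : ZMod p) • 1) ⊔
      LinearMap.ker (σ j - (-1 : ZMod p) • 1))
    by_cases h10 : finrank (ZMod p) (LinearMap.ker (σ j - (1 : ZMod p) • 1)) ≤ 2
    · exact h7 1 (one_mul 1) (fun h => hj' (Or.inr (by simpa using h))) h10
    · exact h7 (-1) (by simp) (fun h => hj' (Or.inl (by simpa using h))) (by omega)
  have h9 : σ j u - u = 0 := by simpa using hu.1
  have h10 : σ j u + u = 0 := by simpa using hu.2
  rw [sub_eq_zero.1 h9, ← two_smul (ZMod p), smul_eq_zero] at h10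
  exact h10.resolve_left fun h => h2 ((Nat.prime_dvd_prime_iff_eq hp.out Nat.prime_two).1
    ((ZMod.natCast_eq_zero_iff 2 p).1 h))

end Cfsg.R3
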